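import Mathlib

/-! Ladder SNN (S4073): groups in which every non-abelian subgroup is self-normalizing. -/

namespace Cfsg.Agent.Lib.Helper73.SNN

/-- Every non-commutative subgroup is self-normalizing. -/
def SN (G : Type*) [Group G] : Prop :=
  ∀ H : Subgroup G, ¬ IsMulCommutative ↥H → Subgroup.normalizer (H : Set G) = H

/-- a subgroup that is normalized by a strictly bigger subgroup is commutative -/
theorem SN.comm_of_lt {G : Type*} [Group G] (h : SN G) (H K : Subgroup G) (hHK : H < K)
    (hn : K ≤ Subgroup.normalizer (H : Set G)) : IsMulCommutative ↥H := by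
  by_contra hc
  have := h H hc
  rw [this] at hn
  exact absurd hHK (not_lt_of_ge hn)

theorem SN.comm_of_normal {G : Type*} [Group G] (h : SN G) (N : Subgroup G) [hN : N.Normal]
    (hne : N ≠ ⊤) : IsMulCommutative ↥N :=
  h.comm_of_lt N ⊤ (lt_top_iff_ne_top.mpr hne) (by rw [Subgroup.normalizer_eq_top]; )

theorem comm_of_equiv {A B : Type*} [Group A] [Group B] (e : A ≃* B) (h : IsMulCommutative A) :
    IsMulCommutative B := by
  refine ⟨⟨fun x y => ?_⟩⟩
  have := h.is_comm.comm (e.symm x) (e.symm y)
  have h2 := congrArg e this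
  simpa using h2

theorem SN.of_equiv {G G' : Type*} [Group G] [Group G'] (e : G ≃* G') (h : SN G) : SN G' := by
  intro H hH
  have h1 : ¬ IsMulCommutative ↥(H.comap e.toMonoidHom) := by
    intro hc
    apply hH
    have e2 : ↥(H.comap e.toMonoidHom) ≃* ↥H := by
      have := e.subgroupMap (H.comap e.toMonoidHom)
      have h3 : (H.comap e.toMonoidHom).map e.toMonoidHom = H :=
        Subgroup.map_comap_eq_self_of_surjective e.surjective H
      exact this.trans (MulEquiv.subgroupCongr h3)
    exact comm_of_equiv e2 hc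
  have h2 := h _ h1
  apply le_antisymm _ Subgroup.le_normalizer
  intro x hx
  have h3 : e.symm x ∈ Subgroup.normalizer ((H.comap e.toMonoidHom : Subgroup G) : Set G) := by
    rw [Subgroup.mem_normalizer_iff]
    intro y
    have := (Subgroup.mem_normalizer_iff.mp hx) (e y)
    simp only [Subgroup.mem_comap, MulEquiv.coe_toMonoidHom, map_mul, map_inv,
      MulEquiv.apply_symm_apply]
    exact this
  rw [h2] at h3
  have : e (e.symm x) ∈ H := h3
  simpa using this

theorem SN.subgroup {G : Type*} [Group G] (h : SN G) (K : Subgroup G) : SN ↥K := by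
  intro H hH
  have h1 : ¬ IsMulCommutative ↥(H.map K.subtype) := by
    intro hc
    apply hH
    have e2 : ↥H ≃* ↥(H.map K.subtype) := H.equivMapOfInjective K.subtype K.subtype_injective
    exact comm_of_equiv e2.symm hc
  have h2 := h _ h1
  apply le_antisymm _ Subgroup.le_normalizer
  intro x hx
  have h3 : (x : G) ∈ Subgroup.normalizer ((H.map K.subtype : Subgroup G) : Set G) := by
    rw [Subgroup.mem_normalizer_iff]
    intro y
    constructor
    · rintro ⟨z, hz, rfl⟩
      exact ⟨x * z * x⁻¹, (Subgroup.mem_normalizer_iff.mp hx z).mp hz, rfl⟩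
    · rintro ⟨z, hz, hzy⟩
      have hy : y = ((x⁻¹ * z * x : K) : G) := by
        simp only [Subgroup.coe_mul, Subgroup.coe_inv]
        have : (z : G) = x * y * (x : G)⁻¹ := hzy
        rw [this]; group
      refine ⟨x⁻¹ * z * x, ?_, hy.symm⟩
      have := (Subgroup.mem_normalizer_iff.mp hx (x⁻¹ * z * x))
      apply this.mpr
      have h5 : x * (x⁻¹ * z * x) * x⁻¹ = z := by group
      rw [h5]; exact hz
  rw [h2] at h3
  obtain ⟨y, hy, hyx⟩ := h3
  have : y = x := Subtype.ext hyx
  exact this ▸ hy

theorem SN.quotient {G : Type*} [Group G] (h : SN G) (N : Subgroup G) [N.Normal] : SN (G ⧸ N) := by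
  intro H hH
  have h1 : ¬ IsMulCommutative ↥(H.comap (QuotientGroup.mk' N)) := by
    intro hc
    apply hH
    refine ⟨⟨?_⟩⟩
    rintro ⟨x, hx⟩ ⟨y, hy⟩
    obtain ⟨a, rfl⟩ := QuotientGroup.mk'_surjective N x
    obtain ⟨b, rfl⟩ := QuotientGroup.mk'_surjective N y
    have := hc.is_comm.comm (⟨a, hx⟩ : ↥(H.comap (QuotientGroup.mk' N))) ⟨b, hy⟩
    apply Subtype.ext
    have h2 := congrArg (fun z : ↥(H.comap (QuotientGroup.mk' N)) => QuotientGroup.mk' N z.1) this
    simpa using h2
  have h2 := h _ h1
  apply le_antisymm _ Subgroup.le_normalizer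
  intro x hx
  obtain ⟨a, rfl⟩ := QuotientGroup.mk'_surjective N x
  have h3 : a ∈ Subgroup.normalizer ((H.comap (QuotientGroup.mk' N) : Subgroup G) : Set G) := by
    rw [Subgroup.mem_normalizer_iff]
    intro y
    have := (Subgroup.mem_normalizer_iff.mp hx) (QuotientGroup.mk' N y)
    simp only [Subgroup.mem_comap, map_mul, map_inv]
    exact this
  rw [h2] at h3
  exact h3

end Cfsg.Agent.Lib.Helper73.SNN
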