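import Cfsg.Agent.Lib.Helper73.SNN.Defs

set_option autoImplicit false

/-! Ladder SNN (S4073), rung QS (helper98). -/

namespace Cfsg.Agent.Lib.Helper73.SNN

theorem qs_comm_iff {G : Type*} [Group G] (H : Subgroup G) :
    IsMulCommutative ↥H ↔ ∀ a ∈ H, ∀ b ∈ H, a * b = b * a := by
  constructor
  · intro h a ha b hb
    have := h.is_comm.comm (⟨a, ha⟩ : H) ⟨b, hb⟩
    exact congrArg Subtype.val this
  · intro h
    exact ⟨⟨fun a b => Subtype.ext (h a a.2 b b.2)⟩⟩

theorem qs_perfect {L : Type*} [Group L] [Finite L] (h : SN L) (hns : ¬ Group.IsSolvable L) :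
    commutator L = ⊤ := by
  by_contra hne
  apply hns
  have hc : IsMulCommutative ↥(commutator L) := h.comm_of_normal (commutator L) hne
  have : Group.IsSolvable ↥(commutator L) :=
    Group.isSolvable_of_comm (fun a b => hc.is_comm.comm a b)
  have : Group.IsSolvable (L ⧸ commutator L) :=
    (inferInstance : Group.IsSolvable (Abelianization L))
  exact (Group.isSolvable_iff_subgroup_quotient (commutator L)).mpr ⟨inferInstance, inferInstance⟩

theorem qs_mem_normalizer_zpowers {Q : Type*} [Group Q] {y z : Q} (h : y * z = z * y) :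
    y ∈ Subgroup.normalizer ((Subgroup.zpowers z : Subgroup Q) : Set Q) := by
  have hc : ∀ k : ℤ, y * z ^ k * y⁻¹ = z ^ k := by
    intro k
    rw [mul_inv_eq_iff_eq_mul]
    exact ((show Commute y z from h).zpow_right k).eq
  rw [Subgroup.mem_normalizer_iff]
  intro x
  constructor
  · rintro ⟨k, rfl⟩
    exact ⟨k, (hc k).symm⟩
  · rintro ⟨k, hk⟩
    refine ⟨k, ?_⟩
    have hk' : z ^ k = y * x * y⁻¹ := hk
    have : x = y⁻¹ * (y * z ^ k * y⁻¹) * y := by rw [hc k, hk']; group
    rw [this]
    show z ^ k = _
    group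

/-- a finite group all of whose non-trivial subgroups are self-normalizing is commutative. -/
theorem qs_aux {Q : Type*} [Group Q] [Finite Q]
    (hQ : ∀ U : Subgroup Q, U ≠ ⊥ → Subgroup.normalizer (U : Set Q) = U) :
    ∀ a b : Q, a * b = b * a := by
  by_cases hsub : Subsingleton Q
  · intro a b
    exact Subsingleton.elim _ _
  rw [not_subsingleton_iff_nontrivial] at hsub
  have hcard : Nat.card Q ≠ 1 := by
    intro h1
    exact (not_subsingleton_iff_nontrivial.mpr hsub) ((Nat.card_eq_one_iff_unique.mp h1).1)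
  have : Fact (Nat.card Q).minFac.Prime := ⟨Nat.minFac_prime hcard⟩
  obtain ⟨P⟩ : Nonempty (Sylow (Nat.card Q).minFac Q) := inferInstance
  have hPne : (P : Subgroup Q) ≠ ⊥ := P.ne_bot_of_dvd_card (Nat.minFac_dvd _)
  have : Nontrivial ↥(P : Subgroup Q) := (Subgroup.nontrivial_iff_ne_bot _).mpr hPne
  have := P.2.center_nontrivial
  obtain ⟨⟨z, hz⟩, hz1⟩ := exists_ne (1 : Subgroup.center ↥(P : Subgroup Q))
  have hz1' : (z : Q) ≠ 1 := by
    intro h1
    apply hz1
    apply Subtype.ext
    apply Subtype.ext
    exact h1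
  have hUne : Subgroup.zpowers (z : Q) ≠ ⊥ := by
    intro h1
    exact hz1' (Subgroup.zpowers_eq_bot.mp h1)
  have hPU : (P : Subgroup Q) ≤ Subgroup.zpowers (z : Q) := by
    rw [← hQ _ hUne]
    intro y hy
    apply qs_mem_normalizer_zpowers
    have := (Subgroup.mem_center_iff.mp hz) ⟨y, hy⟩
    exact congrArg Subtype.val this
  have hPc : ∀ a ∈ (P : Subgroup Q), ∀ b ∈ (P : Subgroup Q), a * b = b * a := by
    intro a ha b hb
    obtain ⟨i, rfl⟩ := hPU ha
    obtain ⟨j, rfl⟩ := hPU hb
    exact (((Commute.refl (z : Q)).zpow_left i).zpow_right j).eq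
  have hNC : Subgroup.normalizer ((P : Subgroup Q) : Set Q)
      ≤ Subgroup.centralizer ((P : Subgroup Q) : Set Q) := by
    rw [hQ _ hPne]
    intro a ha
    rw [Subgroup.mem_centralizer_iff]
    intro b hb
    exact hPc b hb a ha
  have hcompl := MonoidHom.ker_transferSylow_isComplement' P hNC
  by_cases hK : (MonoidHom.transferSylow P hNC).ker = ⊥
  · have h1 := hcompl.sup_eq_top
    rw [hK, bot_sup_eq] at h1
    intro a b
    exact hPc a (h1 ▸ Subgroup.mem_top a) b (h1 ▸ Subgroup.mem_top b)
  · exfalso
    have h1 := hQ _ hK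
    rw [Subgroup.normalizer_eq_top] at h1
    have h2 := hcompl.disjoint.eq_bot
    rw [← h1, top_inf_eq] at h2
    exact hPne h2

theorem qs {L : Type*} [Group L] [Finite L] (h : SN L) (hns : ¬ Group.IsSolvable L)
    (N : Subgroup L) [N.Normal] (hN : N ≠ ⊤) : N ≤ Subgroup.center L := by
  have hNc := (qs_comm_iff N).mp (h.comm_of_normal N hN)
  set C : Subgroup L := Subgroup.centralizer (N : Set L) with hC
  have : C.Normal := by rw [hC]; infer_instance
  have hNC : N ≤ C := by
    intro a ha
    rw [hC, Subgroup.mem_centralizer_iff]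
    intro b hb
    exact hNc b hb a ha
  by_cases hCt : C = ⊤
  · intro x hx
    rw [Subgroup.mem_center_iff]
    intro g
    have hg : g ∈ C := hCt ▸ Subgroup.mem_top g
    rw [hC, Subgroup.mem_centralizer_iff] at hg
    exact (hg x hx).symm
  · exfalso
    apply hns
    have hCc : IsMulCommutative ↥C := h.comm_of_normal C hCt
    have hQ : ∀ U : Subgroup (L ⧸ C), U ≠ ⊥ →
        Subgroup.normalizer (U : Set (L ⧸ C)) = U := by
      intro U hU
      have hnc : ¬ IsMulCommutative ↥(U.comap (QuotientGroup.mk' C)) := by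
        intro hc
        have hc' := (qs_comm_iff _).mp hc
        apply hU
        rw [eq_bot_iff]
        intro x hx
        obtain ⟨a, rfl⟩ := QuotientGroup.mk'_surjective C x
        rw [Subgroup.mem_bot]
        have haC : a ∈ C := by
          rw [hC, Subgroup.mem_centralizer_iff]
          intro b hb
          apply hc' b _ a hx
          rw [Subgroup.mem_comap]
          have : QuotientGroup.mk' C b = 1 := (QuotientGroup.eq_one_iff b).mpr (hNC hb)
          rw [this]
          exact U.one_mem
        exact (QuotientGroup.eq_one_iff a).mpr haC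
      have h2 := h _ hnc
      apply le_antisymm _ Subgroup.le_normalizer
      intro x hx
      obtain ⟨a, rfl⟩ := QuotientGroup.mk'_surjective C x
      have h3 : a ∈ Subgroup.normalizer ((U.comap (QuotientGroup.mk' C) : Subgroup L) : Set L) := by
        rw [Subgroup.mem_normalizer_iff]
        intro y
        have := (Subgroup.mem_normalizer_iff.mp hx) (QuotientGroup.mk' C y)
        simp only [Subgroup.mem_comap, map_mul, map_inv]
        exact this
      rw [h2] at h3
      exact h3
    have : Group.IsSolvable ↥C := Group.isSolvable_of_comm (fun a b => hCc.is_comm.comm a b)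
    have : Group.IsSolvable (L ⧸ C) := Group.isSolvable_of_comm (qs_aux hQ)
    exact (Group.isSolvable_iff_subgroup_quotient C).mpr ⟨inferInstance, inferInstance⟩

end Cfsg.Agent.Lib.Helper73.SNN
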