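import Cfsg.Agent.Lib.Helper73.SNN.QS
import Cfsg.Agent.Lib.Helper71.SolvIndex

set_option autoImplicit false

/-! Ladder SNN (S4073), rung STR (helper98): structure of solvable non-commutative SN groups. -/

namespace Cfsg.Agent.Lib.Helper73.SNN

/-- a nilpotent non-commutative SN group is a `p`-group. -/
theorem str_pgroup_of_nilpotent {M : Type*} [Group M] [Finite M] (h : SN M)
    [Group.IsNilpotent M] (hna : ¬ IsMulCommutative M) : ∃ p : ℕ, p.Prime ∧ IsPGroup p M := by
  by_contra hcon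
  push Not at hcon
  apply hna
  have hS : ∀ (p : ℕ) [Fact p.Prime] (P : Sylow p M), IsMulCommutative ↥(P : Subgroup M) := by
    intro p _ P
    apply h.comm_of_normal (P : Subgroup M)
    intro htop
    apply hcon p Fact.out
    intro g
    obtain ⟨k, hk⟩ := P.2 ⟨g, htop ▸ Subgroup.mem_top g⟩
    exact ⟨k, by simpa using congrArg Subtype.val hk⟩
  have e := Sylow.directProductOfNormal (G := M) (fun {p} _ P => inferInstance)
  apply comm_of_equiv e
  refine ⟨⟨fun f g => ?_⟩⟩
  funext p P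
  have : Fact (p : ℕ).Prime := ⟨Nat.prime_of_mem_primeFactors p.2⟩
  exact (hS p P).is_comm.comm (f p P) (g p P)

/-- the commutator map `n ↦ [n, y]`. -/
def strDl {M : Type*} [Group M] (y n : M) : M := n * y * n⁻¹ * y⁻¹

theorem str_dl_mem {M : Type*} [Group M] {N : Subgroup M} [hN : N.Normal] (y : M) {n : M}
    (hn : n ∈ N) : strDl y n ∈ N := by
  have h1 : y * n⁻¹ * y⁻¹ ∈ N := hN.conj_mem _ (N.inv_mem hn) y
  have : strDl y n = n * (y * n⁻¹ * y⁻¹) := by unfold strDl; group
  rw [this]; exact N.mul_mem hn h1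

theorem str_dl_mul {M : Type*} [Group M] {N : Subgroup M} [hN : N.Normal]
    (hNc : ∀ a ∈ N, ∀ b ∈ N, a * b = b * a) (y : M) {n m : M} (hn : n ∈ N) (hm : m ∈ N) :
    strDl y (n * m) = strDl y n * strDl y m := by
  have h1 : y * n⁻¹ * y⁻¹ ∈ N := hN.conj_mem _ (N.inv_mem hn) y
  have h2 := hNc _ (str_dl_mem y hm) _ h1
  have e1 : strDl y (n * m) = n * (strDl y m * (y * n⁻¹ * y⁻¹)) := by unfold strDl; group
  rw [e1, h2]; unfold strDl; group

/-- the subgroup `[N, y]`. -/
def strD {M : Type*} [Group M] (N : Subgroup M) [N.Normal]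
    (hNc : ∀ a ∈ N, ∀ b ∈ N, a * b = b * a) (y : M) : Subgroup M where
  carrier := {d | ∃ n ∈ N, strDl y n = d}
  mul_mem' := by
    rintro _ _ ⟨n, hn, rfl⟩ ⟨m, hm, rfl⟩
    exact ⟨n * m, N.mul_mem hn hm, str_dl_mul hNc y hn hm⟩
  one_mem' := ⟨1, N.one_mem, by simp [strDl]⟩
  inv_mem' := by
    rintro _ ⟨n, hn, rfl⟩
    refine ⟨n⁻¹, N.inv_mem hn, ?_⟩
    have h0 := str_dl_mul hNc y hn (N.inv_mem hn)
    rw [mul_inv_cancel] at h0
    have h1 : strDl y 1 = 1 := by simp [strDl]
    rw [h1] at h0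
    exact (inv_eq_of_mul_eq_one_right h0.symm).symm

theorem str {M : Type*} [Group M] [Finite M] (h : SN M) (hs : Group.IsSolvable M)
    (hna : ¬ IsMulCommutative M) :
    (∃ p : ℕ, p.Prime ∧ IsPGroup p M) ∨
    (∃ (s : ℕ) (K : Subgroup M) (y : M), s.Prime ∧ K.Normal ∧ IsMulCommutative ↥K ∧
      (Nat.card K).Coprime s ∧ (∃ e : ℕ, orderOf y = s ^ e) ∧ K ⊔ Subgroup.zpowers y = ⊤ ∧
      (∀ k ∈ K, y * k = k * y → k = 1) ∧ (∀ k ∈ K, y ^ s * k = k * y ^ s)) := by
  have hnt : Nontrivial M := by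
    by_contra hc
    rw [not_nontrivial_iff_subsingleton] at hc
    exact hna ⟨⟨fun a b => Subsingleton.elim _ _⟩⟩
  obtain ⟨N, s, hsp, hNn, hNi⟩ := Cfsg.Agent.Lib.Helper71.exists_normal_index_prime M
  have hNtop : N ≠ ⊤ := by
    intro ht
    rw [ht, Subgroup.index_top] at hNi
    exact hsp.one_lt.ne hNi
  have hNc := (qs_comm_iff N).mp (h.comm_of_normal N hNtop)
  obtain ⟨y0, hy0⟩ : ∃ y0, y0 ∉ N := by
    by_contra hc
    push Not at hc
    exact hNtop (eq_top_iff.mpr fun x _ => hc x)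
  have hcardQ : Nat.card (M ⧸ N) = s := hNi
  have hpowN : ∀ g : M, g ^ s ∈ N := by
    intro g
    rw [← QuotientGroup.eq_one_iff, QuotientGroup.mk_pow, ← hcardQ]
    exact pow_card_eq_one'
  obtain ⟨e, m, hsm, hord⟩ := Nat.exists_eq_pow_mul_and_not_dvd (n := orderOf y0)
    (orderOf_pos y0).ne' s hsp.ne_one
  have hm0 : m ≠ 0 := by
    rintro rfl
    exact hsm (dvd_zero s)
  obtain ⟨y, hy⟩ : ∃ y, y = y0 ^ m := ⟨_, rfl⟩
  have hyord : orderOf y = s ^ e := by
    rw [hy, orderOf_pow_of_dvd hm0 (hord ▸ Dvd.intro_left _ rfl), hord,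
      Nat.mul_div_cancel _ (Nat.pos_of_ne_zero hm0)]
  have hyN : y ∉ N := by
    intro hyN
    apply hy0
    have hcop : Nat.Coprime m s := ((Nat.Prime.coprime_iff_not_dvd hsp).mpr hsm).symm
    have hb : (1 : ℤ) = m * Nat.gcdA m s + s * Nat.gcdB m s := by
      have := Nat.gcd_eq_gcd_ab m s
      rw [hcop] at this
      exact_mod_cast this
    have h1 : y0 = (y0 ^ m) ^ (Nat.gcdA m s) * (y0 ^ s) ^ (Nat.gcdB m s) := by
      rw [← zpow_natCast, ← zpow_natCast, ← zpow_mul, ← zpow_mul, ← zpow_add, ← hb, zpow_one]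
    rw [h1, ← hy]
    exact N.mul_mem (N.zpow_mem hyN _) (N.zpow_mem (hpowN y0) _)
  have hsup : N ⊔ Subgroup.zpowers y = ⊤ := by
    have hle : N ≤ N ⊔ Subgroup.zpowers y := le_sup_left
    have h1 := Subgroup.relIndex_mul_index hle
    rw [hNi] at h1
    have h2 : (N ⊔ Subgroup.zpowers y).index ∣ s := Dvd.intro_left _ h1
    rcases (Nat.dvd_prime hsp).mp h2 with h3 | h3
    · exact Subgroup.index_eq_one.mp h3
    · exfalso
      rw [h3] at h1
      have h4 : N.relIndex (N ⊔ Subgroup.zpowers y) = 1 :=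
        Nat.eq_of_mul_eq_mul_right hsp.pos (by rw [h1, one_mul])
      have h5 := Subgroup.relIndex_eq_one.mp h4
      exact hyN (h5 ((le_sup_right : Subgroup.zpowers y ≤ N ⊔ Subgroup.zpowers y)
        (Subgroup.mem_zpowers y)))
  have hdecomp : ∀ g : M, ∃ n ∈ N, ∃ i : ℤ, n * y ^ i = g := by
    intro g
    obtain ⟨n, hn, z, hz, rfl⟩ := Subgroup.mem_sup_of_normal_left.mp
      (hsup ▸ Subgroup.mem_top g : g ∈ N ⊔ Subgroup.zpowers y)
    obtain ⟨i, rfl⟩ := Subgroup.mem_zpowers_iff.mp hz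
    exact ⟨n, hn, i, rfl⟩
  obtain ⟨D, hD⟩ : ∃ D, D = strD N hNc y := ⟨_, rfl⟩
  have hmemD : ∀ d, d ∈ D ↔ ∃ n ∈ N, strDl y n = d := by
    intro d
    rw [hD]
    rfl
  have hDN : D ≤ N := by
    intro d hd
    obtain ⟨n, hn, rfl⟩ := (hmemD d).mp hd
    exact str_dl_mem y hn
  have hDnorm : D.Normal := by
    rw [← Subgroup.normalizer_eq_top_iff, eq_top_iff, ← hsup, sup_le_iff]
    constructor
    · intro a ha
      rw [Subgroup.mem_normalizer_iff]
      intro d
      constructor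
      · intro hd
        have : a * d * a⁻¹ = d := by rw [hNc a ha d (hDN hd)]; group
        rw [this]; exact hd
      · intro hd
        have h1 := hNc a⁻¹ (N.inv_mem ha) _ (hDN hd)
        have : d = a * d * a⁻¹ := by
          calc d = a⁻¹ * (a * d * a⁻¹) * a := by group
            _ = (a * d * a⁻¹) * a⁻¹ * a := by rw [h1]
            _ = a * d * a⁻¹ := by group
        rw [this]; exact hd
    · rw [Subgroup.zpowers_le, Subgroup.mem_normalizer_iff]
      intro d
      constructor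
      · intro hd
        obtain ⟨n, hn, rfl⟩ := (hmemD d).mp hd
        exact (hmemD _).mpr ⟨y * n * y⁻¹, hNn.conj_mem n hn y, by unfold strDl; group⟩
      · intro hd
        obtain ⟨n, hn, hnd⟩ := (hmemD _).mp hd
        refine (hmemD _).mpr ⟨y⁻¹ * n * y, ?_, ?_⟩
        · have := hNn.conj_mem n hn y⁻¹
          simpa using this
        · have : d = y⁻¹ * strDl y n * y := by rw [hnd]; group
          rw [this]; unfold strDl; group
  have hq1 : ∀ n ∈ N, ∀ n' ∈ N,
      Commute (QuotientGroup.mk' D n) (QuotientGroup.mk' D n') := by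
    intro n hn n' hn'
    show _ * _ = _ * _
    rw [← map_mul, ← map_mul, hNc n hn n' hn']
  have hq2 : ∀ n ∈ N, Commute (QuotientGroup.mk' D n) (QuotientGroup.mk' D y) := by
    intro n hn
    show _ * _ = _ * _
    rw [← map_mul, ← map_mul]
    have h0 : n * y = strDl y n * (y * n) := by unfold strDl; group
    rw [h0, map_mul]
    have h1 : QuotientGroup.mk' D (strDl y n) = 1 :=
      (QuotientGroup.eq_one_iff _).mpr ((hmemD _).mpr ⟨n, hn, rfl⟩)
    rw [h1, one_mul]
  have hq : ∀ g₁ g₂ : M, Commute (QuotientGroup.mk' D g₁) (QuotientGroup.mk' D g₂) := by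
    intro g₁ g₂
    obtain ⟨n₁, hn₁, i, rfl⟩ := hdecomp g₁
    obtain ⟨n₂, hn₂, j, rfl⟩ := hdecomp g₂
    rw [map_mul, map_mul, map_zpow, map_zpow]
    exact Commute.mul_left (Commute.mul_right (hq1 n₁ hn₁ n₂ hn₂) ((hq2 n₁ hn₁).zpow_right j))
      (Commute.mul_right ((hq2 n₂ hn₂).symm.zpow_left i)
        (((Commute.refl _).zpow_left i).zpow_right j))
  have hcomm : ∀ g₁ g₂ : M, g₁ * g₂ * g₁⁻¹ * g₂⁻¹ ∈ D := by
    intro g₁ g₂
    rw [← QuotientGroup.eq_one_iff]
    have h0 := (hq g₁ g₂).eq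
    show QuotientGroup.mk' D (g₁ * g₂ * g₁⁻¹ * g₂⁻¹) = 1
    rw [map_mul, map_mul, map_mul, map_inv, map_inv, h0]
    group
  have hDH : D ≤ D ⊔ Subgroup.zpowers y := le_sup_left
  have hyH : Subgroup.zpowers y ≤ D ⊔ Subgroup.zpowers y := le_sup_right
  have hHnorm : (D ⊔ Subgroup.zpowers y).Normal := by
    refine ⟨fun x hx g => ?_⟩
    have : g * x * g⁻¹ = (g * x * g⁻¹ * x⁻¹) * x := by group
    rw [this]
    exact (D ⊔ Subgroup.zpowers y).mul_mem (hDH (hcomm g x)) hx
  by_cases hHt : D ⊔ Subgroup.zpowers y = ⊤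
  swap
  · left
    have hHc := (qs_comm_iff _).mp (h.comm_of_normal (D ⊔ Subgroup.zpowers y) hHt)
    have hDcen : D ≤ Subgroup.center M := by
      intro d hd
      rw [Subgroup.mem_center_iff]
      intro g
      obtain ⟨n, hn, i, rfl⟩ := hdecomp g
      have h1 : n * d = d * n := hNc n hn d (hDN hd)
      have h2 : y ^ i * d = d * y ^ i :=
        hHc _ (hyH (Subgroup.zpow_mem_zpowers y i)) d (hDH hd)
      rw [mul_assoc, h2, ← mul_assoc, h1, mul_assoc]
    have hnilQ : Group.IsNilpotent (M ⧸ D) := by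
      apply Subgroup.isNilpotent_of_ker_le_center (1 : M ⧸ D →* Unit)
      intro x _
      rw [Subgroup.mem_center_iff]
      intro g
      obtain ⟨a, rfl⟩ := QuotientGroup.mk'_surjective D x
      obtain ⟨b, rfl⟩ := QuotientGroup.mk'_surjective D g
      exact (hq b a).eq
    have hnil : Group.IsNilpotent M := by
      apply Subgroup.isNilpotent_of_ker_le_center (QuotientGroup.mk' D)
      rw [QuotientGroup.ker_mk']
      exact hDcen
    exact str_pgroup_of_nilpotent h hna
  · right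
    have hfix : ∀ k ∈ D, y * k = k * y → k = 1 := by
      let φ : ↥D → ↥D := fun d => ⟨strDl y d, (hmemD _).mpr ⟨d, hDN d.2, rfl⟩⟩
      have hsurj : Function.Surjective φ := by
        rintro ⟨d, hd⟩
        obtain ⟨n, hn, rfl⟩ := (hmemD d).mp hd
        obtain ⟨d₀, hd₀, z, hz, rfl⟩ := Subgroup.mem_sup_of_normal_left.mp
          (hHt ▸ Subgroup.mem_top n : n ∈ D ⊔ Subgroup.zpowers y)
        refine ⟨⟨d₀, hd₀⟩, Subtype.ext ?_⟩
        show strDl y d₀ = strDl y (d₀ * z)
        have hzN : z ∈ N := by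
          have : z = d₀⁻¹ * (d₀ * z) := by group
          rw [this]; exact N.mul_mem (N.inv_mem (hDN hd₀)) hn
        rw [str_dl_mul hNc y (hDN hd₀) hzN]
        have : strDl y z = 1 := by
          obtain ⟨i, rfl⟩ := Subgroup.mem_zpowers_iff.mp hz
          unfold strDl
          group
        rw [this, mul_one]
      have hinj := Finite.injective_iff_surjective.mpr hsurj
      intro k hk hyk
      have h1 : φ ⟨k, hk⟩ = φ ⟨1, D.one_mem⟩ := by
        apply Subtype.ext
        show strDl y k = strDl y 1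
        unfold strDl
        rw [← hyk]; group
      exact congrArg Subtype.val (hinj h1)
    have hcop : (Nat.card D).Coprime s := by
      have hfact : Fact s.Prime := ⟨hsp⟩
      let _ : MulAction (Subgroup.zpowers y) D :=
        MulAction.compHom D ((MulAut.conjNormal (H := D)).comp (Subgroup.zpowers y).subtype)
      have hsm : ∀ (g : Subgroup.zpowers y) (d : D), ((g • d : D) : M) = g * d * (g : M)⁻¹ :=
        fun g d => rfl
      have hP : IsPGroup s (Subgroup.zpowers y) :=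
        IsPGroup.of_card (n := e) (by rw [Nat.card_zpowers, hyord])
      have h1 := hP.card_modEq_card_fixedPoints D
      have h2 : Nat.card (MulAction.fixedPoints (Subgroup.zpowers y) D) = 1 := by
        have hall : ∀ a : MulAction.fixedPoints (Subgroup.zpowers y) D, ((a : D) : M) = 1 := by
          rintro ⟨a, ha⟩
          apply hfix a a.2
          have h3 := congrArg Subtype.val (ha ⟨y, Subgroup.mem_zpowers y⟩)
          rw [hsm] at h3
          exact mul_inv_eq_iff_eq_mul.mp h3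
        rw [Nat.card_eq_one_iff_unique]
        refine ⟨⟨fun a b => ?_⟩, ⟨⟨1, ?_⟩⟩⟩
        · apply Subtype.ext
          apply Subtype.ext
          rw [hall a, hall b]
        · intro g
          apply Subtype.ext
          rw [hsm]
          simp
      rw [h2] at h1
      apply Nat.Coprime.symm
      rw [Nat.Prime.coprime_iff_not_dvd hsp]
      intro hdvd
      have h3 := h1.symm.trans (Nat.modEq_zero_iff_dvd.mpr hdvd)
      have h4 : s ∣ 1 := (Nat.modEq_zero_iff_dvd).mp h3
      exact hsp.one_lt.ne' (Nat.dvd_one.mp h4)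
    exact ⟨s, D, y, hsp, hDnorm,
      (qs_comm_iff D).mpr (fun a ha b hb => hNc a (hDN ha) b (hDN hb)), hcop, ⟨e, hyord⟩, hHt,
      hfix, fun k hk => hNc _ (hpowN y) k (hDN hk)⟩

end Cfsg.Agent.Lib.Helper73.SNN
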