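import Mathlib
import Cfsg.Agent.Lib.Helper73.SNN.Defs
import Cfsg.Agent.Lib.Helper73.SNN.STR
import Cfsg.Agent.Lib.Helper73.SNN.QS
import Cfsg.Agent.Lib.Helper28.CyclicSylow
import Cfsg.Agent.Lib.Helper11.TwoComplement

set_option autoImplicit false

namespace Cfsg.Agent.Lib.Helper73.SNN

open Subgroup

theorem centralizer_comm {G : Type*} [Group G] [Finite G] [IsSimpleGroup G]
    (hna : ¬ IsMulCommutative G) (h : SN G)
    (hS : ∀ S : Sylow 2 G, IsMulCommutative ↥(S : Subgroup G)) (t : G) (ht : orderOf t = 2) :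
    IsMulCommutative ↥(Subgroup.centralizer ({t} : Set G)) := by
  haveI : Fact (Nat.Prime 2) := ⟨Nat.prime_two⟩
  by_contra hM
  obtain ⟨M, hMdef⟩ : ∃ M, M = centralizer ({t} : Set G) := ⟨_, rfl⟩
  rw [← hMdef] at hM
  have hSN : SN ↥M := h.subgroup M
  have htM : t ∈ M := by
    rw [hMdef, mem_centralizer_singleton_iff]
  have two_comm : ∀ Q : Subgroup G, IsPGroup 2 Q → ∀ a ∈ Q, ∀ b ∈ Q, a * b = b * a := by
    intro Q hQ a ha b hb
    obtain ⟨S, hQS⟩ := hQ.exists_le_sylow
    have := (hS S).is_comm.comm ⟨a, hQS ha⟩ ⟨b, hQS hb⟩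
    exact congrArg Subtype.val this
  obtain ⟨τ, hτ⟩ : ∃ τ : ↥M, (τ : G) = t := ⟨⟨t, htM⟩, rfl⟩
  have hτo : orderOf τ = 2 := by rw [← Subgroup.orderOf_coe, hτ, ht]
  have hτ1 : τ ≠ 1 := by
    intro h1
    rw [h1, orderOf_one] at hτo
    omega
  have hτc : ∀ m : ↥M, τ * m = m * τ := by
    intro m
    have h1 : (m : G) ∈ centralizer ({t} : Set G) := hMdef ▸ m.2
    rw [mem_centralizer_singleton_iff] at h1
    apply Subtype.ext
    rw [Subgroup.coe_mul, Subgroup.coe_mul, hτ]
    exact h1.symm
  by_cases hsol : Group.IsSolvable ↥M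
  · rcases str hSN hsol hM with ⟨p, hp, hpM⟩ |
      ⟨s, K, y, hs, hKn, hKc, hcop, ⟨e, he⟩, hsup, hfix, hys⟩
    · -- `M` is a `p`-group, `p = 2`
      haveI : Fact p.Prime := ⟨hp⟩
      obtain ⟨k, hk⟩ := (IsPGroup.iff_orderOf.1 hpM) τ
      rw [hτo] at hk
      have hp2 : p = 2 := by
        have h1 : p ∣ 2 := by
          rcases Nat.eq_zero_or_pos k with rfl | hk0
          · simp at hk
          · rw [hk]; exact dvd_pow_self p (by omega)
        exact (Nat.prime_dvd_prime_iff_eq hp Nat.prime_two).1 h1
      subst hp2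
      exact hM ⟨⟨fun a b => Subtype.ext (two_comm M hpM a a.2 b b.2)⟩⟩
    · have hidx : K.index ∣ s ^ e := by
        have h1 : K.index = K.relIndex (zpowers y) := by
          rw [← relIndex_top_right, ← hsup, sup_comm, relIndex_sup_right]
        rw [h1, ← he, ← Nat.card_zpowers]
        exact relIndex_dvd_card _ _
      by_cases hs2 : s = 2
      · subst hs2
        -- `K` has odd order; a Sylow 2-subgroup of `G` over `t` is cyclic
        have h2t : IsPGroup 2 (zpowers t) := by
          rw [IsPGroup.iff_card]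
          exact ⟨1, by rw [Nat.card_zpowers, ht, pow_one]⟩
        obtain ⟨S1, hS1⟩ := h2t.exists_le_sylow
        have htS1 : t ∈ (S1 : Subgroup G) := hS1 (mem_zpowers t)
        have hS1M : (S1 : Subgroup G) ≤ M := by
          intro x hx
          rw [hMdef, mem_centralizer_singleton_iff]
          exact two_comm S1 S1.isPGroup' x hx t htS1
        have hcycQ : IsCyclic (↥M ⧸ K) := by
          have hsurj : Function.Surjective
              ((QuotientGroup.mk' K).comp (zpowers y).subtype) := by
            intro q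
            obtain ⟨m, rfl⟩ := QuotientGroup.mk'_surjective K q
            have hm : m ∈ K ⊔ zpowers y := by rw [hsup]; exact mem_top m
            rw [← SetLike.mem_coe, normal_mul, Set.mem_mul] at hm
            obtain ⟨k, hk, z, hz, rfl⟩ := hm
            refine ⟨⟨z, hz⟩, ?_⟩
            show QuotientGroup.mk' K z = QuotientGroup.mk' K (k * z)
            have hk1 : QuotientGroup.mk' K k = 1 := (QuotientGroup.eq_one_iff k).2 hk
            rw [map_mul, hk1, one_mul]
          exact isCyclic_of_surjective _ hsurj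
        have hinj : Function.Injective ((QuotientGroup.mk' K).comp (inclusion hS1M)) := by
          rw [injective_iff_map_eq_one]
          intro x hx
          have hxK : inclusion hS1M x ∈ K := (QuotientGroup.eq_one_iff _).1 hx
          obtain ⟨k, hk⟩ := (IsPGroup.iff_orderOf.1 S1.isPGroup') x
          have h1 : orderOf (inclusion hS1M x) = orderOf x :=
            orderOf_injective _ (inclusion_injective hS1M) x
          have h2 : orderOf (inclusion hS1M x) ∣ Nat.card K := by
            have := orderOf_dvd_natCard (⟨_, hxK⟩ : K)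
            rwa [Subgroup.orderOf_mk] at this
          rw [h1, hk] at h2
          have h3 : (2 ^ k).Coprime (Nat.card K) := (Nat.Coprime.pow_right k hcop).symm
          have h4 : 2 ^ k = 1 := Nat.Coprime.eq_one_of_dvd h3 h2
          rw [h4] at hk
          exact orderOf_eq_one_iff.1 hk
        have hcyc : IsCyclic ↥(S1 : Subgroup G) := isCyclic_of_injective _ hinj
        obtain ⟨N, hN, hNodd, k, hk⟩ := Cfsg.Agent.Lib.Helper11.NC_of_cyclic_sylow S1 hcyc
        rcases hN.eq_bot_or_eq_top with rfl | rfl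
        · rw [index_bot] at hk
          have hG2 : IsPGroup 2 G := IsPGroup.of_card hk
          have hG2' : IsPGroup 2 (⊤ : Subgroup G) := hG2.to_subgroup _
          exact hna ⟨⟨fun a b => two_comm ⊤ hG2' a (mem_top a) b (mem_top b)⟩⟩
        · rw [card_top] at hNodd
          have h1 : 2 ∣ Nat.card G := ht ▸ orderOf_dvd_natCard t
          exact (Nat.not_even_iff_odd.2 hNodd) (even_iff_two_dvd.2 h1)
      · -- `s` odd: `τ ∈ K`
        have hsodd : Odd s := hs.odd_of_ne_two hs2
        have hiodd : Odd K.index := Odd.of_dvd_nat (hsodd.pow) hidx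
        obtain ⟨m, hm⟩ := hiodd
        have h1 : τ ^ K.index ∈ K := K.pow_index_mem τ
        have h2 : τ ^ K.index = τ := by
          have h3 : τ ^ 2 = 1 := by rw [← hτo]; exact pow_orderOf_eq_one τ
          rw [hm, pow_succ, pow_mul, h3, one_pow, one_mul]
        rw [h2] at h1
        exact hτ1 (hfix τ h1 (hτc y).symm)
  · have hperf := qs_perfect hSN hsol
    have h2τ : IsPGroup 2 (zpowers τ) := by
      rw [IsPGroup.iff_card]
      exact ⟨1, by rw [Nat.card_zpowers, hτo, pow_one]⟩
    obtain ⟨P, hP⟩ := h2τ.exists_le_sylow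
    have hPc : IsMulCommutative ↥(P : Subgroup ↥M) := by
      have hmap : IsPGroup 2 ((P : Subgroup ↥M).map M.subtype) := P.isPGroup'.map _
      refine ⟨⟨fun a b => ?_⟩⟩
      apply Subtype.ext
      apply Subtype.ext
      exact two_comm _ hmap _ (mem_map_of_mem _ a.2) _ (mem_map_of_mem _ b.2)
    apply hτ1
    exact Cfsg.Agent.Lib.Helper28.eq_one_of_mem_center_of_perfect hperf P hPc
      (hP (mem_zpowers τ)) (mem_center_iff.2 (fun m => (hτc m).symm))

end Cfsg.Agent.Lib.Helper73.SNN
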