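import Mathlib
import Cfsg.Agent.Lib.Helper73.SNN.Defs
import Cfsg.Agent.Lib.Helper57.SLCent1

set_option autoImplicit false

namespace Cfsg.Agent.Lib.Helper73.SNN

open Matrix Subgroup
open Cfsg.Agent.Lib.Helper57.SLC (mul_entry)
open Cfsg.Agent.Lib.Helper59 (sl2_ext sl2_det)
open Cfsg.Agent.Lib.Helper36 (sl2U sl2U_val)

section

variable {F : Type*} [Field F]

local notation "SL" => SpecialLinearGroup (Fin 2) F

theorem borInv_entry (A : SL) : (A⁻¹).1 = !![A.1 1 1, -A.1 0 1; -A.1 1 0, A.1 0 0] := by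
  rw [show (A⁻¹).1 = adjugate A.1 from Matrix.SpecialLinearGroup.coe_inv A, adjugate_fin_two]

/-- diagonal element -/
def borD (c : Fˣ) : SL := ⟨!![(c : F), 0; 0, ((c⁻¹ : Fˣ) : F)], by simp [det_fin_two]⟩

theorem borD_val (c : Fˣ) : (borD c).1 = !![(c : F), 0; 0, ((c⁻¹ : Fˣ) : F)] := rfl

/-- upper triangular matrices with diagonal entry in `T` -/
def borH (T : Subgroup Fˣ) : Subgroup SL where
  carrier := {A | A.1 1 0 = 0 ∧ ∃ u ∈ T, A.1 0 0 = (u : F)}
  mul_mem' := by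
    rintro A B ⟨hA, u, hu, hAu⟩ ⟨hB, v, hv, hBv⟩
    refine ⟨?_, u * v, T.mul_mem hu hv, ?_⟩
    · rw [mul_entry, hA, hB]; ring
    · rw [mul_entry, hB, hAu, hBv]; push_cast; ring
  one_mem' := ⟨by simp, 1, T.one_mem, by simp⟩
  inv_mem' := by
    rintro A ⟨hA, u, hu, hAu⟩
    refine ⟨?_, u⁻¹, T.inv_mem hu, ?_⟩
    · rw [borInv_entry]; simp [hA]
    · rw [borInv_entry]
      have hd := sl2_det A
      rw [hA, hAu] at hd
      have : A.1 1 1 = ((u⁻¹ : Fˣ) : F) := by
        have h1 : (u : F) * A.1 1 1 = 1 := by linear_combination hd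
        have h2 : (u : F) * ((u⁻¹ : Fˣ) : F) = 1 := by simp
        exact mul_left_cancel₀ u.ne_zero (h1.trans h2.symm)
      simpa using this

theorem mem_borH {T : Subgroup Fˣ} {A : SL} :
    A ∈ borH T ↔ A.1 1 0 = 0 ∧ ∃ u ∈ T, A.1 0 0 = (u : F) := Iff.rfl

end

theorem bor (F : Type) [Field F] [Fintype F] [CharP F 2]
    (h : SN (Matrix.SpecialLinearGroup (Fin 2) F)) (n : ℕ) (hn : Fintype.card F = 2 ^ n)
    (h2 : 2 ≤ n) : (2 ^ n - 1).Prime := by
  classical
  by_contra hnp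
  have hcard : Nat.card Fˣ = 2 ^ n - 1 := by
    rw [Nat.card_eq_fintype_card, Fintype.card_units, hn]
  have hN1 : 2 ^ n - 1 ≠ 1 := by
    have : 2 ^ 2 ≤ 2 ^ n := Nat.pow_le_pow_right (by norm_num) h2
    omega
  -- a proper nontrivial subgroup of the multiplicative group
  obtain ⟨p, hp⟩ : ∃ p, p = (2 ^ n - 1).minFac := ⟨_, rfl⟩
  have hpp : p.Prime := hp ▸ Nat.minFac_prime hN1
  haveI : Fact p.Prime := ⟨hpp⟩
  have hpd : p ∣ Nat.card Fˣ := by rw [hcard, hp]; exact Nat.minFac_dvd _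
  obtain ⟨a, ha⟩ := exists_prime_orderOf_dvd_card' p hpd
  have ha1 : a ≠ 1 := by
    rintro rfl
    rw [orderOf_one] at ha
    exact hpp.one_lt.ne ha
  have hT : zpowers a ≠ ⊤ := by
    intro htop
    have h1 : Nat.card (zpowers a) = Nat.card Fˣ := by rw [htop, card_top]
    rw [Nat.card_zpowers, ha, hcard] at h1
    exact hnp (h1 ▸ hpp)
  obtain ⟨c, hc⟩ : ∃ c, c ∉ zpowers a := by
    by_contra hall
    push Not at hall
    exact hT (eq_top_iff.2 (fun x _ => hall x))
  -- the subgroup is not commutative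
  have hnc : ¬ IsMulCommutative ↥(borH (zpowers a)) := by
    intro hcomm
    have m1 : borD a ∈ borH (zpowers a) :=
      ⟨by rw [borD_val]; simp, a, mem_zpowers a, by rw [borD_val]; simp⟩
    have m2 : sl2U (1 : F) ∈ borH (zpowers a) :=
      ⟨by rw [sl2U_val]; simp, 1, one_mem _, by rw [sl2U_val]; simp⟩
    have h1 := hcomm.is_comm.comm ⟨_, m1⟩ ⟨_, m2⟩
    have h3 : borD a * sl2U (1 : F) = sl2U (1 : F) * borD a := congrArg Subtype.val h1
    have h4 : (borD a * sl2U (1 : F)).1 0 1 = (sl2U (1 : F) * borD a).1 0 1 := by rw [h3]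
    rw [mul_entry, mul_entry, borD_val, sl2U_val] at h4
    simp at h4
    -- `a = a⁻¹`
    have h5 : (a : F) * a = 1 := by
      have : (a : F) * (a : F)⁻¹ = 1 := mul_inv_cancel₀ a.ne_zero
      rw [← h4] at this
      exact this
    have h6 : ((a : F) - 1) * ((a : F) - 1) = 0 := by
      have h22 : (2 : F) = 0 := CharTwo.two_eq_zero
      linear_combination h5 - (a : F) * h22 + h22
    have h7 : (a : F) = 1 := by
      have := mul_self_eq_zero.1 h6
      linear_combination this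
    exact ha1 (Units.ext h7)
  have hself := h _ hnc
  have hD : borD c ∈ normalizer ((borH (zpowers a) : Subgroup _) : Set _) := by
    rw [mem_normalizer_iff]
    intro A
    have e10 : (borD c * A * (borD c)⁻¹).1 1 0 =
        ((c⁻¹ : Fˣ) : F) * ((c⁻¹ : Fˣ) : F) * A.1 1 0 := by
      rw [mul_entry, mul_entry, mul_entry, borInv_entry, borD_val]
      simp
      ring
    have e00 : (borD c * A * (borD c)⁻¹).1 0 0 = A.1 0 0 := by
      rw [mul_entry, mul_entry, mul_entry, borInv_entry, borD_val]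
      simp
      field_simp
    rw [mem_borH, mem_borH, e10, e00]
    have hne : ((c⁻¹ : Fˣ) : F) * ((c⁻¹ : Fˣ) : F) ≠ 0 :=
      mul_ne_zero (Units.ne_zero _) (Units.ne_zero _)
    constructor
    · rintro ⟨h0, hu⟩
      exact ⟨by rw [h0, mul_zero], hu⟩
    · rintro ⟨h0, hu⟩
      exact ⟨(mul_eq_zero.1 h0).resolve_left hne, hu⟩
  rw [hself] at hD
  obtain ⟨-, u, hu, hcu⟩ := hD
  rw [borD_val] at hcu
  simp at hcu
  exact hc (by rw [Units.ext hcu]; exact hu)

end Cfsg.Agent.Lib.Helper73.SNN
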