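import Cfsg.Agent.Lib.Helper73.SNN.Defs
import Cfsg.Agent.Lib.Helper7.SL2Full

set_option autoImplicit false
set_option linter.unusedSimpArgs false

/-! Ladder SNN (S4073), rung CONVB (helper98): non-commutative subgroups of a Borel subgroup. -/

namespace Cfsg.Agent.Lib.Helper73.SNN

open Matrix Subgroup Cfsg.Agent.Lib.Helper46 Cfsg.Agent.Lib.Helper18.SL2 Cfsg.Agent.Lib.Helper7

theorem convb_pow {F : Type} [Field F] {h : SpecialLinearGroup (Fin 2) F} (h10 : h.1 1 0 = 0)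
    (i : ℕ) : (h ^ i).1 1 0 = 0 ∧ (h ^ i).1 0 0 = (h.1 0 0) ^ i := by
  induction i with
  | zero => simp
  | succ i ih =>
    rw [pow_succ]
    refine ⟨?_, ?_⟩
    · have := mul_10 (h ^ i) h
      rw [this, ih.1, h10]; ring
    · have := mul_00 (h ^ i) h
      rw [this, ih.2, h10]; ring

/-- an upper triangular matrix with `1` in the corner is `uu`. -/
theorem convb_eq_uu {F : Type} [Field F] {w : SpecialLinearGroup (Fin 2) F} (h10 : w.1 1 0 = 0)
    (h00 : w.1 0 0 = 1) : w = uu (w.1 0 1) := by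
  have hd := det2 w
  apply ext2 <;> simp only [uu, mk2_00, mk2_01, mk2_10, mk2_11]
  · exact h00
  · exact h10
  · have h00' : (w : Matrix (Fin 2) (Fin 2) F) 0 0 = 1 := h00
    have h10' : (w : Matrix (Fin 2) (Fin 2) F) 1 0 = 0 := h10
    rw [h00', h10'] at hd
    linear_combination hd

theorem convb_core (F : Type) [Field F] [Fintype F] [CharP F 2] (n : ℕ)
    (hn : Fintype.card F = 2 ^ n) (hp : (2 ^ n - 1).Prime)
    (H : Subgroup (SpecialLinearGroup (Fin 2) F))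
    (hH : ∃ x ∈ H, ∃ y ∈ H, x * y ≠ y * x) (hB : ∀ x ∈ H, x.1 1 0 = 0) :
    ∀ x : SpecialLinearGroup (Fin 2) F, x.1 1 0 = 0 → x ∈ H := by
  have h2 : (2 : F) = 0 := by exact_mod_cast CharP.cast_eq_zero F 2
  have hfact : Fact (2 ^ n - 1).Prime := ⟨hp⟩
  have hcardU : Nat.card Fˣ = 2 ^ n - 1 := by
    classical
    rw [Nat.card_eq_fintype_card, Fintype.card_units, hn]
  obtain ⟨x, hx, y, hy, hxy⟩ := hH
  -- a non-trivial unipotent element
  obtain ⟨c, hc0, hcH⟩ : ∃ c : F, c ≠ 0 ∧ uu c ∈ H := by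
    have hw : x * y * x⁻¹ * y⁻¹ ∈ H := H.mul_mem (H.mul_mem (H.mul_mem hx hy) (H.inv_mem hx))
      (H.inv_mem hy)
    have hx10 : (x : Matrix (Fin 2) (Fin 2) F) 1 0 = 0 := hB x hx
    have hy10 : (y : Matrix (Fin 2) (Fin 2) F) 1 0 = 0 := hB y hy
    have hdx := det2 x
    have hdy := det2 y
    rw [hx10] at hdx
    rw [hy10] at hdy
    have h00 : (x * y * x⁻¹ * y⁻¹).1 0 0 = 1 := by
      show ((x * y * x⁻¹ * y⁻¹ : SpecialLinearGroup (Fin 2) F) : Matrix (Fin 2) (Fin 2) F) 0 0 = 1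
      simp only [mul_00, mul_01, mul_10, mul_11, inv_00, inv_01, inv_10, inv_11, hx10, hy10]
      linear_combination
        ((x : Matrix (Fin 2) (Fin 2) F) 0 0 * (x : Matrix (Fin 2) (Fin 2) F) 1 1) * hdy + hdx
    have he := convb_eq_uu (hB _ hw) h00
    refine ⟨_, ?_, he ▸ hw⟩
    intro h0
    rw [h0] at he
    apply hxy
    have h1 : uu (0 : F) = 1 := by
      apply ext2 <;> simp [uu]
    rw [h1] at he
    have : x * y = (x * y * x⁻¹ * y⁻¹) * (y * x) := by group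
    rw [this, he, one_mul]
  -- an element with non-trivial diagonal
  obtain ⟨h, hhH, hh00⟩ : ∃ h ∈ H, h.1 0 0 ≠ 1 := by
    by_contra hcon
    push Not at hcon
    apply hxy
    rw [convb_eq_uu (hB x hx) (hcon x hx), convb_eq_uu (hB y hy) (hcon y hy)]
    apply ext2 <;> simp only [mul_00, mul_01, mul_10, mul_11, uu, mk2_00, mk2_01, mk2_10, mk2_11]
      <;> ring
  have hh10 := hB h hhH
  have hdet := bor_det hh10
  have ha0 : h.1 0 0 ≠ 0 := by
    intro h0
    rw [h0, zero_mul] at hdet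
    exact zero_ne_one hdet
  have hau1 : Units.mk0 (h.1 0 0) ha0 ≠ 1 := by
    intro h0
    exact hh00 (congrArg Units.val h0)
  have hau2 : (Units.mk0 (h.1 0 0) ha0) ^ 2 ≠ 1 := by
    intro h0
    have h1 : (h.1 0 0) ^ 2 = 1 := by
      have := congrArg Units.val h0
      simpa using this
    apply hh00
    have h3 : (h.1 0 0 - 1) ^ 2 = 0 := by linear_combination h1 - (h.1 0 0 - 1) * h2
    have h4 := pow_eq_zero_iff (two_ne_zero) |>.mp h3
    linear_combination h4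
  -- all unipotent elements
  have hU : ∀ f : F, uu f ∈ H := by
    intro f
    by_cases hf : f = 0
    · subst hf
      have h1 : uu (0 : F) = 1 := by
        apply ext2 <;> simp [uu]
      rw [h1]; exact H.one_mem
    · have hfc : f / c ≠ 0 := div_ne_zero hf hc0
      obtain ⟨i, hi⟩ := mem_powers_of_prime_card hcardU hau2 (g' := Units.mk0 (f / c) hfc)
      have hi' : ((h.1 0 0) ^ 2) ^ i = f / c := by
        have := congrArg Units.val hi
        simpa using this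
      have hpw := convb_pow hh10 i
      have hconj := conj_uu_of_bor hpw.1 c
      rw [hpw.2] at hconj
      have e : ((h.1 0 0) ^ i) ^ 2 * c = f := by
        rw [← pow_mul, mul_comm i 2, pow_mul, hi']
        field_simp
      rw [e] at hconj
      rw [← hconj]
      exact H.mul_mem (H.mul_mem (H.pow_mem hhH i) hcH) (H.inv_mem (H.pow_mem hhH i))
  intro z hz10
  have hdz := bor_det hz10
  have hz0 : z.1 0 0 ≠ 0 := by
    intro h0
    rw [h0, zero_mul] at hdz
    exact zero_ne_one hdz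
  obtain ⟨j, hj⟩ := mem_powers_of_prime_card hcardU hau1 (g' := Units.mk0 (z.1 0 0) hz0)
  have hj' : (h.1 0 0) ^ j = z.1 0 0 := by
    have := congrArg Units.val hj
    simpa using this
  have hpw := convb_pow hh10 j
  have hdp := bor_det hpw.1
  have hw10 : ((h ^ j)⁻¹ * z).1 1 0 = 0 := by
    show (((h ^ j)⁻¹ * z : SpecialLinearGroup (Fin 2) F) : Matrix (Fin 2) (Fin 2) F) 1 0 = 0
    have a1 : ((h ^ j : SpecialLinearGroup (Fin 2) F) : Matrix (Fin 2) (Fin 2) F) 1 0 = 0 := hpw.1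
    have a2 : (z : Matrix (Fin 2) (Fin 2) F) 1 0 = 0 := hz10
    rw [mul_10, inv_10, inv_11, a1, a2]; ring
  have hw00 : ((h ^ j)⁻¹ * z).1 0 0 = 1 := by
    show (((h ^ j)⁻¹ * z : SpecialLinearGroup (Fin 2) F) : Matrix (Fin 2) (Fin 2) F) 0 0 = 1
    have a2 : (z : Matrix (Fin 2) (Fin 2) F) 1 0 = 0 := hz10
    have a3 : (z : Matrix (Fin 2) (Fin 2) F) 0 0 = (h ^ j).1 0 0 := by
      rw [hpw.2, hj']
    rw [mul_00, inv_00, inv_01, a2, a3]
    linear_combination hdp
  have hw := convb_eq_uu hw10 hw00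
  have : z = h ^ j * ((h ^ j)⁻¹ * z) := by group
  rw [this, hw]
  exact H.mul_mem (H.pow_mem hhH j) (hU _)

theorem convb_entry {F : Type} [Field F] (x : SpecialLinearGroup (Fin 2) F)
    (h : (x * uu 1 * x⁻¹).1 1 0 = 0) : x.1 1 0 = 0 := by
  have h' : ((x * uu 1 * x⁻¹ : SpecialLinearGroup (Fin 2) F) : Matrix (Fin 2) (Fin 2) F) 1 0 = 0 := h
  simp only [mul_00, mul_01, mul_10, mul_11, inv_00, inv_01, inv_10, inv_11, uu,
    mk2_00, mk2_01, mk2_10, mk2_11] at h'
  have h3 : ((x : Matrix (Fin 2) (Fin 2) F) 1 0) ^ 2 = 0 := by linear_combination -h'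
  exact pow_eq_zero_iff (two_ne_zero) |>.mp h3

theorem convb (F : Type) [Field F] [Fintype F] [CharP F 2] (n : ℕ) (hn : Fintype.card F = 2 ^ n)
    (h2 : 2 ≤ n) (hp : (2 ^ n - 1).Prime) (H : Subgroup (SpecialLinearGroup (Fin 2) F))
    (hH : ¬ IsMulCommutative ↥H)
    (hB : ∃ g : SpecialLinearGroup (Fin 2) F, ∀ x ∈ H, (g * x * g⁻¹).1 1 0 = 0) :
    Subgroup.normalizer (H : Set (SpecialLinearGroup (Fin 2) F)) = H := by
  obtain ⟨g, hg⟩ := hB
  obtain ⟨a, ha, b, hb, hab⟩ : ∃ a ∈ H, ∃ b ∈ H, a * b ≠ b * a := by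
    by_contra hcon
    push Not at hcon
    exact hH ⟨⟨fun a b => Subtype.ext (hcon a a.2 b b.2)⟩⟩
  have hmem : ∀ y, y ∈ H.map (MulAut.conj g).toMonoidHom ↔ ∃ x ∈ H, g * x * g⁻¹ = y := by
    intro y
    rw [Subgroup.mem_map]
    rfl
  have hcore := convb_core F n hn hp (H.map (MulAut.conj g).toMonoidHom)
    ⟨g * a * g⁻¹, (hmem _).mpr ⟨a, ha, rfl⟩, g * b * g⁻¹, (hmem _).mpr ⟨b, hb, rfl⟩, by
      intro h0
      apply hab
      have e1 : g * a * g⁻¹ * (g * b * g⁻¹) = g * (a * b) * g⁻¹ := by group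
      have e2 : g * b * g⁻¹ * (g * a * g⁻¹) = g * (b * a) * g⁻¹ := by group
      rw [e1, e2] at h0
      exact mul_left_cancel (mul_right_cancel h0)⟩
    (by
      intro y hy
      obtain ⟨x, hx, rfl⟩ := (hmem y).mp hy
      exact hg x hx)
  apply le_antisymm _ Subgroup.le_normalizer
  intro x hx
  have hu : uu (1 : F) ∈ H.map (MulAut.conj g).toMonoidHom := hcore _ (by simp [uu])
  obtain ⟨u, huH, hu'⟩ := (hmem _).mp hu
  have h3 : x * u * x⁻¹ ∈ H := (Subgroup.mem_normalizer_iff.mp hx u).mp huH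
  have h4 := hg _ h3
  have e : g * (x * u * x⁻¹) * g⁻¹ = (g * x * g⁻¹) * uu 1 * (g * x * g⁻¹)⁻¹ := by
    rw [← hu']; group
  rw [e] at h4
  have h5 := hcore _ (convb_entry _ h4)
  obtain ⟨x', hx', hxx⟩ := (hmem _).mp h5
  have : x' = x := mul_left_cancel (mul_right_cancel hxx)
  exact this ▸ hx'

end Cfsg.Agent.Lib.Helper73.SNN
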