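import Cfsg.Agent.Lib.Helper73.SNN.Defs
import Cfsg.Agent.Lib.Helper7.SL2Full

set_option autoImplicit false

/-! Ladder SNN (S4073), rung CONVE (helper98): no exceptional subgroups in characteristic two. -/

namespace Cfsg.Agent.Lib.Helper73.SNN

open Matrix Subgroup Cfsg.Agent.Lib.Helper46 Cfsg.Agent.Lib.Helper18.SL2 Cfsg.Agent.Lib.Helper7

theorem conve_center (F : Type) [Field F] [CharP F 2] :
    ∀ g ∈ center (SpecialLinearGroup (Fin 2) F), g = 1 := by
  have h2 : (2 : F) = 0 := by exact_mod_cast CharP.cast_eq_zero F 2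
  have hz : zc F = 1 := zc_of_two_eq h2
  intro g hg
  have hs := (Nat.card_eq_one_iff_unique.mp hz).1
  have := hs.elim (⟨g, hg⟩ : center (SpecialLinearGroup (Fin 2) F)) 1
  exact congrArg Subtype.val this

theorem conve_aux (F : Type) [Field F] [Fintype F] [CharP F 2]
    (H : Subgroup (SpecialLinearGroup (Fin 2) F)) {y : SpecialLinearGroup (Fin 2) F} (hyH : y ∈ H)
    {c k : ℕ} (hc0 : 0 < c) (hck : 2 * c = 2 ^ k) (h : CD H c 2 y) : False := by
  have h2 : (2 : F) = 0 := by exact_mod_cast CharP.cast_eq_zero F 2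
  have hz : zc F = 1 := zc_of_two_eq h2
  obtain ⟨h1, h3⟩ := h
  rw [hz, one_mul] at h1 h3
  have hfact : Fact (Nat.Prime 2) := ⟨Nat.prime_two⟩
  have hP : IsPGroup 2 (norIn H (cenIn H y)) := IsPGroup.of_card (n := k) (by rw [h3, hck])
  have hnt : Nontrivial (norIn H (cenIn H y)) := by
    rw [← Finite.one_lt_card_iff_nontrivial, h3]
    omega
  have hcn := hP.center_nontrivial
  obtain ⟨⟨z, hz'⟩, hz1⟩ := exists_ne (1 : Subgroup.center ↥(norIn H (cenIn H y)))
  have hz1' : (z : SpecialLinearGroup (Fin 2) F) ≠ 1 := by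
    intro h0
    apply hz1
    apply Subtype.ext
    apply Subtype.ext
    exact h0
  have hznc : (z : SpecialLinearGroup (Fin 2) F) ∉ center (SpecialLinearGroup (Fin 2) F) :=
    fun h0 => hz1' (conve_center F _ h0)
  have hcomm : ∀ a ∈ norIn H (cenIn H y), Commute a (z : SpecialLinearGroup (Fin 2) F) := by
    intro a ha
    have := (Subgroup.mem_center_iff.mp hz') ⟨a, ha⟩
    exact congrArg Subtype.val this
  have hyP : y ∈ norIn H (cenIn H y) := le_norIn (cenIn_le H y) (self_mem_cenIn hyH)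
  have hle : norIn H (cenIn H y) ≤ cenIn H y := by
    intro a ha
    exact mem_cenIn.2 ⟨norIn_le _ _ ha, commTrans_SL2 _ a y hznc (hcomm a ha) (hcomm y hyP)⟩
  have := Subgroup.card_le_of_le hle
  omega

theorem conve (F : Type) [Field F] [Fintype F] [CharP F 2]
    (H : Subgroup (SpecialLinearGroup (Fin 2) F)) (hE : Exc H) : False := by
  have h2 : (2 : F) = 0 := by exact_mod_cast CharP.cast_eq_zero F 2
  have hz : zc F = 1 := zc_of_two_eq h2
  have hfact : Fact (Nat.Prime 2) := ⟨Nat.prime_two⟩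
  have heven : 2 ∣ Nat.card H := by
    rcases hE with ⟨h, -⟩ | ⟨h, -⟩ | ⟨h, -⟩ <;> rw [h, hz] <;> norm_num
  obtain ⟨y', hy'⟩ := exists_prime_orderOf_dvd_card' 2 heven
  have hyH : (y' : SpecialLinearGroup (Fin 2) F) ∈ H := y'.2
  have hyord : orderOf (y' : SpecialLinearGroup (Fin 2) F) = 2 := by
    rw [Subgroup.orderOf_coe, hy']
  have hync : (y' : SpecialLinearGroup (Fin 2) F) ∉ center (SpecialLinearGroup (Fin 2) F) := by
    intro h0
    rw [conve_center F _ h0, orderOf_one] at hyord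
    omega
  have hdvd : ∀ c ε : ℕ, CD H c ε (y' : SpecialLinearGroup (Fin 2) F) → 2 ∣ c := by
    intro c ε h
    have h1 := h.1
    rw [hz, one_mul] at h1
    rw [← h1]
    have := orderOf_dvd_natCard (⟨(y' : SpecialLinearGroup (Fin 2) F), self_mem_cenIn hyH⟩ :
      cenIn H (y' : SpecialLinearGroup (Fin 2) F))
    rwa [Subgroup.orderOf_mk, hyord] at this
  have c2 : ¬ CD H 2 2 (y' : SpecialLinearGroup (Fin 2) F) :=
    fun h => conve_aux F H hyH (c := 2) (k := 2) (by norm_num) (by norm_num) h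
  have c4 : ¬ CD H 4 2 (y' : SpecialLinearGroup (Fin 2) F) :=
    fun h => conve_aux F H hyH (c := 4) (k := 3) (by norm_num) (by norm_num) h
  have c3 : ∀ ε, ¬ CD H 3 ε (y' : SpecialLinearGroup (Fin 2) F) := fun ε h => by
    have := hdvd 3 ε h
    omega
  have c5 : ∀ ε, ¬ CD H 5 ε (y' : SpecialLinearGroup (Fin 2) F) := fun ε h => by
    have := hdvd 5 ε h
    omega
  rcases hE with ⟨-, h⟩ | ⟨-, h⟩ | ⟨-, h⟩
  · rcases h _ hyH hync with h | h
    · exact c2 h
    · exact c3 _ h
  · rcases h _ hyH hync with h | h | h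
    · exact c2 h
    · exact c3 _ h
    · exact c4 h
  · rcases h _ hyH hync with h | h | h
    · exact c2 h
    · exact c3 _ h
    · exact c5 _ h

end Cfsg.Agent.Lib.Helper73.SNN
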