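import Cfsg.Agent.Lib.Helper73.SNN.Defs
import Cfsg.Agent.Lib.Helper7.SL2Full
import Cfsg.Agent.Lib.Helper7.PSL2Num
import Cfsg.Agent.Lib.Helper7.PSL2Tor

set_option autoImplicit false

namespace Cfsg.Agent.Lib.Helper73.SNN

open Matrix Subgroup Cfsg.Agent.Lib.Helper46 Cfsg.Agent.Lib.Helper18.SL2 Cfsg.Agent.Lib.Helper7
open Cfsg.Agent.Lib.Helper7.PMax

/-- a group of order `6`: an element of order `3` is centralized or inverted by everybody -/
theorem convs_six {L : Type*} [Group L] (hL : Nat.card L = 6) :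
    ∃ x : L, orderOf x = 3 ∧ ∀ h : L, h * x * h⁻¹ = x ∨ h * x * h⁻¹ = x⁻¹ := by
  classical
  have : Finite L := Nat.finite_of_card_ne_zero (by omega)
  have : Fact (Nat.Prime 3) := ⟨Nat.prime_three⟩
  obtain ⟨x, hx⟩ := exists_prime_orderOf_dvd_card' (G := L) 3 (by rw [hL]; norm_num)
  refine ⟨x, hx, fun h => ?_⟩
  have hidx : (zpowers x).index = 2 := by
    have h1 := (zpowers x).card_mul_index
    rw [Nat.card_zpowers, hx, hL] at h1
    omega
  have hn : (zpowers x).Normal := normal_of_index_eq_two hidx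
  have hmem : h * x * h⁻¹ ∈ zpowers x := hn.conj_mem x (mem_zpowers x) h
  rw [mem_zpowers_iff_mem_range_orderOf, hx] at hmem
  simp only [Finset.mem_image, Finset.mem_range] at hmem
  obtain ⟨k, hk, hxk⟩ := hmem
  have hx3 : x ^ 3 = 1 := by rw [← hx]; exact pow_orderOf_eq_one x
  interval_cases k
  · exfalso
    rw [pow_zero] at hxk
    have h1 : x = 1 := by
      have : h * x * h⁻¹ = h * 1 * h⁻¹ := by rw [← hxk]; group
      exact mul_left_cancel (mul_right_cancel this)
    rw [h1, orderOf_one] at hx
    omega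
  · left; rw [← hxk, pow_one]
  · right
    rw [← hxk]
    exact eq_inv_of_mul_eq_one_left (by rw [← pow_succ, hx3])

theorem convs (F : Type) [Field F] [Fintype F] [CharP F 2] (n : ℕ)
    (hn : Fintype.card F = 2 ^ n) (h2 : 2 ≤ n) (hp : (2 ^ n - 1).Prime)
    (H : Subgroup (SpecialLinearGroup (Fin 2) F)) (hH : ¬ IsMulCommutative ↥H) (K : Subfield F)
    (D : GL (Fin 2) F) (hS : InSub K D H) : H = ⊤ ∨ Tor H := by
  have h20 : (2 : F) = 0 := by
    have := CharP.cast_eq_zero F 2
    exact_mod_cast this
  have hz : zc F = 1 := zc_of_two_eq h20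
  have hZ : center (SpecialLinearGroup (Fin 2) F) ≤ H := by
    have : center (SpecialLinearGroup (Fin 2) F) = ⊥ := (Subgroup.card_eq_one).mp hz
    rw [this]; exact bot_le
  have hpre : pre (img H) = H := pre_img hZ
  have hS' : InSub K D (pre (img H)) := by rw [hpre]; exact hS
  have hK2 : 2 ≤ Nat.card K := by
    have := Fintype.ofFinite K
    rw [Nat.card_eq_fintype_card]
    exact Fintype.one_lt_card
  have hdvd : Nat.card K - 1 ∣ 2 ^ n - 1 := by
    rw [← hn, card_eq_pow K]
    simpa using Nat.sub_dvd_pow_sub_pow (x := Nat.card K) (y := 1) (n := Module.finrank K F)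
  rcases (Nat.dvd_prime hp).mp hdvd with h | h
  · right
    have hK : Nat.card K = 2 := by omega
    have hcard : Nat.card H = 6 := by
      rw [← hpre, card_pre]
      rcases hS'.equiv (img H) (fun g => Iff.rfl) with ⟨⟨e⟩⟩ | ⟨⟨e⟩⟩
      · rw [card_of_equiv_psl e, hK]; norm_num
      · rw [card_of_equiv_pgl e, hK, hz]; norm_num
    obtain ⟨x, hx, hall⟩ := convs_six hcard
    refine ⟨x.1, x.2, ?_, fun h hh => ?_⟩
    · intro htr
      have h4 : (4 : F) = 0 := by
        have : (4 : F) = 2 * 2 := by norm_num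
        rw [this, h20, mul_zero]
      rw [h4] at htr
      have htr0 : tr x.1 = 0 := by simpa using htr
      have h1 := sq_of_tr_zero x.1 htr0
      have h3 : (negOne : SpecialLinearGroup (Fin 2) F) = 1 := by
        have hc : (negOne : SpecialLinearGroup (Fin 2) F) ∈
            center (SpecialLinearGroup (Fin 2) F) := negOne_mem_center
        have : center (SpecialLinearGroup (Fin 2) F) = ⊥ := (Subgroup.card_eq_one).mp hz
        rw [this, mem_bot] at hc
        exact hc
      rw [h3] at h1
      have h5 : x ^ 2 = 1 := by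
        apply Subtype.ext
        rw [sq]
        exact h1
      have := orderOf_dvd_of_pow_eq_one h5
      rw [hx] at this
      omega
    · rcases hall ⟨h, hh⟩ with h1 | h1
      · left
        have h6 : h * x.1 * h⁻¹ = x.1 := congrArg Subtype.val h1
        exact mul_inv_eq_iff_eq_mul.mp h6
      · right
        exact congrArg Subtype.val h1
  · left
    have hK : Nat.card K = Fintype.card F := by
      rw [hn]
      have : 1 ≤ 2 ^ n := Nat.one_le_two_pow
      omega
    have := (InSub.card_dvd hS').2 hK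
    rw [← hpre, this]
    rfl

end Cfsg.Agent.Lib.Helper73.SNN
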