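import Cfsg.Agent.Lib.Helper73.SNN.Defs
import Cfsg.Agent.Lib.Helper7.SL2Full
import Cfsg.Agent.Lib.Helper46.SL2Sylow2

/-! Ladder SNN (S4073), rung CONVT: in characteristic two a non-commutative subgroup of
`SL₂(F)` normalising a torus is self-normalising. -/

namespace Cfsg.Agent.Lib.Helper73.SNN
open Matrix Subgroup Cfsg.Agent.Lib.Helper46 Cfsg.Agent.Lib.Helper18.SL2 Cfsg.Agent.Lib.Helper7

section
variable {F : Type} [Field F] [CharP F 2]

theorem ct_sq_of_tr (g : SpecialLinearGroup (Fin 2) F) (h : tr g = 0) : g * g = 1 := by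
  have h2 : (2 : F) = 0 := CharTwo.two_eq_zero
  have hd := det2 g
  simp only [tr] at h
  apply ext2 <;> simp only [mul_00, mul_01, mul_10, mul_11, one_00, one_01, one_10, one_11]
  · generalize (g : Matrix (Fin 2) (Fin 2) F) 0 0 = a at *
    generalize (g : Matrix (Fin 2) (Fin 2) F) 0 1 = b at *
    generalize (g : Matrix (Fin 2) (Fin 2) F) 1 0 = c at *
    generalize (g : Matrix (Fin 2) (Fin 2) F) 1 1 = d at *
    linear_combination a * h - hd - h2
  · generalize (g : Matrix (Fin 2) (Fin 2) F) 0 0 = a at *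
    generalize (g : Matrix (Fin 2) (Fin 2) F) 0 1 = b at *
    generalize (g : Matrix (Fin 2) (Fin 2) F) 1 0 = c at *
    generalize (g : Matrix (Fin 2) (Fin 2) F) 1 1 = d at *
    linear_combination b * h
  · generalize (g : Matrix (Fin 2) (Fin 2) F) 0 0 = a at *
    generalize (g : Matrix (Fin 2) (Fin 2) F) 0 1 = b at *
    generalize (g : Matrix (Fin 2) (Fin 2) F) 1 0 = c at *
    generalize (g : Matrix (Fin 2) (Fin 2) F) 1 1 = d at *
    linear_combination c * h
  · generalize (g : Matrix (Fin 2) (Fin 2) F) 0 0 = a at *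
    generalize (g : Matrix (Fin 2) (Fin 2) F) 0 1 = b at *
    generalize (g : Matrix (Fin 2) (Fin 2) F) 1 0 = c at *
    generalize (g : Matrix (Fin 2) (Fin 2) F) 1 1 = d at *
    linear_combination d * h - hd - h2

theorem ct_tr_of_sq (g : SpecialLinearGroup (Fin 2) F) (h : g * g = 1) : tr g = 0 := by
  have h2 : (2 : F) = 0 := CharTwo.two_eq_zero
  have hd := det2 g
  have e00 := congrArg (fun Z : SpecialLinearGroup (Fin 2) F => (Z : Matrix (Fin 2) (Fin 2) F) 0 0) h
  have e11 := congrArg (fun Z : SpecialLinearGroup (Fin 2) F => (Z : Matrix (Fin 2) (Fin 2) F) 1 1) h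
  simp only [mul_00, mul_11, one_00, one_11] at e00 e11
  simp only [tr]
  generalize (g : Matrix (Fin 2) (Fin 2) F) 0 0 = a at *
  generalize (g : Matrix (Fin 2) (Fin 2) F) 0 1 = b at *
  generalize (g : Matrix (Fin 2) (Fin 2) F) 1 0 = c at *
  generalize (g : Matrix (Fin 2) (Fin 2) F) 1 1 = d at *
  have : (a + d) ^ 2 = 0 := by
    linear_combination e00 + e11 + 2 * hd + 2 * h2
  exact pow_eq_zero_iff (two_ne_zero) |>.1 this

theorem ct_center (g : SpecialLinearGroup (Fin 2) F)
    (h : g ∈ Subgroup.center (SpecialLinearGroup (Fin 2) F)) : g = 1 := by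
  have h2 : (2 : F) = 0 := CharTwo.two_eq_zero
  obtain ⟨h01, h10, h0⟩ := (mem_center_iff2 g).1 h
  have h00 : (g : Matrix (Fin 2) (Fin 2) F) 0 0 = 1 := by
    rcases center_entry g h with h3 | h3
    · exact h3
    · rw [h3]; linear_combination -h2
  apply ext2 <;> simp only [one_00, one_01, one_10, one_11]
  · exact h00
  · exact h01
  · exact h10
  · rw [← h0]; exact h00

theorem ct_not_center (g : SpecialLinearGroup (Fin 2) F) (h : g ≠ 1) :
    g ∉ Subgroup.center (SpecialLinearGroup (Fin 2) F) := fun hc => h (ct_center g hc)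

theorem ct_tr_one : tr (1 : SpecialLinearGroup (Fin 2) F) = 0 := by
  have h2 : (2 : F) = 0 := CharTwo.two_eq_zero
  simp only [tr, one_00, one_11]
  linear_combination h2

/-- an element inverting a non-trivial element is an involution -/
theorem ct_tr_of_inverts (h x : SpecialLinearGroup (Fin 2) F) (hx : x ≠ 1)
    (hi : h * x * h⁻¹ = x⁻¹) : tr h = 0 := by
  have h2 : (2 : F) = 0 := CharTwo.two_eq_zero
  have hxc := ct_not_center x hx
  rw [mem_center_iff2] at hxc
  have hWA : h * x = x⁻¹ * h := mul_inv_eq_iff_eq_mul.1 hi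
  have f00 := congrArg (fun Z : SpecialLinearGroup (Fin 2) F => (Z : Matrix (Fin 2) (Fin 2) F) 0 0) hWA
  have f01 := congrArg (fun Z : SpecialLinearGroup (Fin 2) F => (Z : Matrix (Fin 2) (Fin 2) F) 0 1) hWA
  have f10 := congrArg (fun Z : SpecialLinearGroup (Fin 2) F => (Z : Matrix (Fin 2) (Fin 2) F) 1 0) hWA
  have f11 := congrArg (fun Z : SpecialLinearGroup (Fin 2) F => (Z : Matrix (Fin 2) (Fin 2) F) 1 1) hWA
  simp only [mul_00, mul_01, mul_10, mul_11, inv_00, inv_01, inv_10, inv_11] at f00 f01 f10 f11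
  simp only [tr]
  generalize (x : Matrix (Fin 2) (Fin 2) F) 0 0 = a at *
  generalize (x : Matrix (Fin 2) (Fin 2) F) 0 1 = b at *
  generalize (x : Matrix (Fin 2) (Fin 2) F) 1 0 = c at *
  generalize (x : Matrix (Fin 2) (Fin 2) F) 1 1 = d at *
  generalize (h : Matrix (Fin 2) (Fin 2) F) 0 0 = p at *
  generalize (h : Matrix (Fin 2) (Fin 2) F) 0 1 = q at *
  generalize (h : Matrix (Fin 2) (Fin 2) F) 1 0 = r at *
  generalize (h : Matrix (Fin 2) (Fin 2) F) 1 1 = s at *
  by_contra hne
  apply hxc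
  have k1 : (p + s) * b = 0 := by linear_combination f01
  have k2 : (p + s) * c = 0 := by linear_combination f10
  have k3 : (p + s) * (a - d) = 0 := by linear_combination f00 - f11
  refine ⟨?_, ?_, ?_⟩
  · exact (mul_eq_zero.1 k1).resolve_left hne
  · exact (mul_eq_zero.1 k2).resolve_left hne
  · exact sub_eq_zero.1 ((mul_eq_zero.1 k3).resolve_left hne)

/-- a non-trivial element commuting with a semisimple one is semisimple -/
theorem ct_tr_ne (c x : SpecialLinearGroup (Fin 2) F) (hx : tr x ≠ 0) (hc : Commute c x)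
    (hc1 : c ≠ 1) : tr c ≠ 0 := by
  have h2 : (2 : F) = 0 := CharTwo.two_eq_zero
  intro h0
  obtain ⟨α, β, e00, e01, e10, e11⟩ := commutant c x (ct_not_center c hc1) hc.eq.symm
  apply hx
  simp only [tr] at h0 ⊢
  rw [e00, e11]
  linear_combination α * h2 + β * h0

theorem ct_same_or_inv (X Y : SpecialLinearGroup (Fin 2) F) (hX : tr X ≠ 0) (hc : Commute Y X)
    (ht : tr Y = tr X) : Y = X ∨ Y = X⁻¹ := by
  have h2 : (2 : F) = 0 := CharTwo.two_eq_zero
  have hX1 : X ≠ 1 := by
    rintro rfl; exact hX ct_tr_one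
  obtain ⟨α, β, e00, e01, e10, e11⟩ := commutant X Y (ct_not_center X hX1) hc.eq
  have hdX := det2 X
  have hdY := det2 Y
  simp only [tr] at hX ht
  rw [e00, e01, e10, e11] at hdY
  rw [e00, e11] at ht
  have hβ : β = 1 := by
    have : (β - 1) * ((X : Matrix (Fin 2) (Fin 2) F) 0 0 + (X : Matrix (Fin 2) (Fin 2) F) 1 1) = 0 := by
      linear_combination ht - α * h2
    exact sub_eq_zero.1 ((mul_eq_zero.1 this).resolve_right hX)
  subst hβ
  have hα : α * (α + ((X : Matrix (Fin 2) (Fin 2) F) 0 0 + (X : Matrix (Fin 2) (Fin 2) F) 1 1)) = 0 := by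
    linear_combination hdY - hdX
  rcases mul_eq_zero.1 hα with h | h
  · left
    subst h
    apply ext2
    · rw [e00]; ring
    · rw [e01]; ring
    · rw [e10]; ring
    · rw [e11]; ring
  · right
    apply ext2 <;> simp only [inv_00, inv_01, inv_10, inv_11]
    · rw [e00]; linear_combination h - (X : Matrix (Fin 2) (Fin 2) F) 1 1 * h2
    · rw [e01]; linear_combination (X : Matrix (Fin 2) (Fin 2) F) 0 1 * h2
    · rw [e10]; linear_combination (X : Matrix (Fin 2) (Fin 2) F) 1 0 * h2
    · rw [e11]; linear_combination h - (X : Matrix (Fin 2) (Fin 2) F) 0 0 * h2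

theorem ct_mem_of_sq [Fintype F] (H : Subgroup (SpecialLinearGroup (Fin 2) F))
    (g x : SpecialLinearGroup (Fin 2) F) (hx : tr x ≠ 0) (hc : Commute g x)
    (hg : g * g ∈ H) : g ∈ H := by
  have hpos : 0 < orderOf g := orderOf_pos g
  rcases Nat.even_or_odd' (orderOf g) with ⟨m, hm | hm⟩
  · exfalso
    have hm0 : 0 < m := by omega
    have hu1 : g ^ m ≠ 1 := by
      intro h
      have := orderOf_le_of_pow_eq_one hm0 h
      omega
    have hu2 : g ^ m * g ^ m = 1 := by
      rw [← pow_add, ← two_mul, ← hm]; exact pow_orderOf_eq_one g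
    exact ct_tr_ne (g ^ m) x hx (hc.pow_left m) hu1 (ct_tr_of_sq _ hu2)
  · have h1 : g = (g * g) ^ (m + 1) := by
      rw [← pow_two, ← pow_mul]
      have : 2 * (m + 1) = orderOf g + 1 := by omega
      rw [this, pow_succ, pow_orderOf_eq_one, one_mul]
    rw [h1]
    exact H.pow_mem hg _

end

theorem convt (F : Type) [Field F] [Fintype F] [CharP F 2]
    (H : Subgroup (SpecialLinearGroup (Fin 2) F)) (hH : ¬ IsMulCommutative ↥H) (hT : Tor H) :
    Subgroup.normalizer (H : Set (SpecialLinearGroup (Fin 2) F)) = H := by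
  have h2 : (2 : F) = 0 := CharTwo.two_eq_zero
  obtain ⟨x, hxH, hs, hall⟩ := hT
  have htx : tr x ≠ 0 := by
    intro h0
    apply hs
    rw [h0]
    linear_combination (-2) * h2
  have hx1 : x ≠ 1 := by
    rintro rfl; exact htx ct_tr_one
  have hxc := ct_not_center x hx1
  obtain ⟨w, hwH, hwx⟩ : ∃ w ∈ H, ¬ Commute w x := by
    by_contra hcon
    push Not at hcon
    apply hH
    refine ⟨⟨fun a b => ?_⟩⟩
    apply Subtype.ext
    exact commTrans_SL2 x a b hxc (hcon a a.2) (hcon b b.2)
  have hwi : w * x * w⁻¹ = x⁻¹ := (hall w hwH).resolve_left hwx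
  have cII : ∀ g ∈ normalizer (H : Set (SpecialLinearGroup (Fin 2) F)), Commute g x → g ∈ H := by
    intro g hg hgx
    have h1 : w * g * w⁻¹ = g⁻¹ := commutant_inv x g w hxc hgx.eq hwi
    have h3 : g * w * g⁻¹ ∈ H := (mem_normalizer_iff.1 hg w).1 hwH
    have h4 : g * g = g * w * g⁻¹ * w⁻¹ := by
      have h5 : w * g⁻¹ * w⁻¹ = g := by
        have h6 := congrArg (·⁻¹) h1
        simpa [mul_assoc] using h6
      calc g * g = g * (w * g⁻¹ * w⁻¹) := by rw [h5]
        _ = _ := by group
    have h5 : g * g ∈ H := by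
      rw [h4]; exact H.mul_mem h3 (H.inv_mem hwH)
    exact ct_mem_of_sq H g x htx hgx h5
  apply le_antisymm _ le_normalizer
  intro g hg
  have hy : g * x * g⁻¹ ∈ H := (mem_normalizer_iff.1 hg x).1 hxH
  have hty : tr (g * x * g⁻¹) = tr x := tr_conj g x
  have hyx : Commute (g * x * g⁻¹) x := by
    rcases hall _ hy with h | h
    · exact h
    · exfalso
      have h7 := ct_tr_of_inverts _ x hx1 h
      rw [hty] at h7
      exact htx h7
  rcases ct_same_or_inv x _ htx hyx hty with h | h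
  · apply cII g hg
    exact mul_inv_eq_iff_eq_mul.1 h
  · have hgw : g * w ∈ normalizer (H : Set (SpecialLinearGroup (Fin 2) F)) :=
      mul_mem hg (le_normalizer hwH)
    have hcm : Commute (g * w) x := by
      have h8 : g * w * x * (g * w)⁻¹ = x := by
        calc g * w * x * (g * w)⁻¹ = g * (w * x * w⁻¹) * g⁻¹ := by group
          _ = (g * x * g⁻¹)⁻¹ := by rw [hwi]; group
          _ = x := by rw [h, inv_inv]
      exact mul_inv_eq_iff_eq_mul.1 h8
    have h9 := cII _ hgw hcm
    have h6 : g = g * w * w⁻¹ := by group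
    rw [h6]
    exact H.mul_mem h9 (H.inv_mem hwH)

end Cfsg.Agent.Lib.Helper73.SNN
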