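import Cfsg.Agent.Lib.Helper73.SNN.Defs
import Cfsg.Agent.Lib.Helper7.SL2Full
import Cfsg.Agent.Lib.Helper73.SNN.CONVB
import Cfsg.Agent.Lib.Helper73.SNN.CONVT
import Cfsg.Agent.Lib.Helper73.SNN.CONVE
import Cfsg.Agent.Lib.Helper73.SNN.CONVS

namespace Cfsg.Agent.Lib.Helper73.SNN
open Matrix Subgroup Cfsg.Agent.Lib.Helper46 Cfsg.Agent.Lib.Helper18.SL2 Cfsg.Agent.Lib.Helper7

theorem sn_sl2 (F : Type) [Field F] [Fintype F] [CharP F 2] (n : ℕ) (hn : Fintype.card F = 2 ^ n)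
    (h2 : 2 ≤ n) (hp : (2 ^ n - 1).Prime) : SN (Matrix.SpecialLinearGroup (Fin 2) F) := by
  intro H hH
  have hZ : center (SpecialLinearGroup (Fin 2) F) ≤ H := by
    intro x hx
    have h20 : (2 : F) = 0 := CharTwo.two_eq_zero
    have := zc_of_two_eq h20
    rw [zc] at this
    have hb := Subgroup.card_eq_one.mp this
    rw [hb] at hx
    rw [Subgroup.mem_bot.mp hx]; exact H.one_mem
  haveI : Fact (Nat.Prime 2) := ⟨Nat.prime_two⟩
  rcases dickson_full 2 H hZ with h | h | h | ⟨K, D, h⟩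
  · exact convb F n hn h2 hp H hH h
  · exact convt F H hH h
  · exact (conve F H h).elim
  · rcases convs F n hn h2 hp H hH K D h with h | h
    · subst h; exact Subgroup.normalizer_eq_top (H := (⊤ : Subgroup (SpecialLinearGroup (Fin 2) F)))
    · exact convt F H hH h

end Cfsg.Agent.Lib.Helper73.SNN
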