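import Mathlib
import Cfsg.Agent.Lib.Helper73.SNN.Defs
import Cfsg.Agent.Lib.Helper7.SL2ClassZ
import Cfsg.Agent.Lib.Helper7.SL2
import Cfsg.Agent.Lib.Helper6.SLEquiv

set_option autoImplicit false

namespace Cfsg.Agent.Lib.Helper73.SNN

open Subgroup

theorem sl2_equiv_psl2 (F : Type) [Field F] [CharP F 2] :
    Nonempty (Matrix.SpecialLinearGroup (Fin 2) F ≃*
      Matrix.ProjectiveSpecialLinearGroup (Fin 2) F) := by
  have h2 : (2 : F) = 0 := CharTwo.two_eq_zero
  have hb : center (Matrix.SpecialLinearGroup (Fin 2) F) = ⊥ :=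
    Subgroup.eq_bot_of_card_eq _ (Cfsg.Agent.Lib.Helper7.zc_of_two_eq h2)
  exact ⟨(QuotientGroup.quotientBot.symm).trans (QuotientGroup.quotientMulEquivOfEq hb.symm)⟩

theorem iso {G : Type*} [Group G] [Finite G] [IsSimpleGroup G] (hna : ¬ IsMulCommutative G)
    (F : Type) [Field F] [Fintype F] [CharP F 2] (A : Type) [CommGroup A] [Finite A]
    (e : G ≃* Matrix.SpecialLinearGroup (Fin 2) F × A) :
    ∃ n : ℕ, 2 ≤ n ∧ Fintype.card F = 2 ^ n ∧
      Nonempty (G ≃* Matrix.SpecialLinearGroup (Fin 2) F) ∧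
      Nonempty (G ≃* Matrix.ProjectiveSpecialLinearGroup (Fin 2) (GaloisField 2 n)) := by
  classical
  haveI : Fact (Nat.Prime 2) := ⟨Nat.prime_two⟩
  haveI : Fact (Nat.Prime 3) := ⟨Nat.prime_three⟩
  obtain ⟨ψ, hψ⟩ : ∃ ψ : G →* A, ψ = (MonoidHom.snd _ _).comp e.toMonoidHom := ⟨_, rfl⟩
  have hker : ψ.ker = ⊤ := by
    rcases (MonoidHom.normal_ker ψ).eq_bot_or_eq_top with h | h
    · exfalso
      apply hna
      have hinj := (MonoidHom.ker_eq_bot_iff ψ).1 h
      exact ⟨⟨fun a b => hinj (by rw [map_mul, map_mul, mul_comm])⟩⟩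
    · exact h
  have hsnd : ∀ g : G, (e g).2 = 1 := by
    intro g
    have : g ∈ ψ.ker := by rw [hker]; exact mem_top g
    rw [MonoidHom.mem_ker, hψ] at this
    exact this
  have hbij : Function.Bijective ((MonoidHom.fst _ A).comp e.toMonoidHom) := by
    constructor
    · intro a b hab
      apply e.injective
      exact Prod.ext hab (by rw [hsnd, hsnd])
    · intro s
      exact ⟨e.symm (s, 1), by simp⟩
  have e1 : G ≃* Matrix.SpecialLinearGroup (Fin 2) F := MulEquiv.ofBijective _ hbij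
  obtain ⟨n, -, hn⟩ := FiniteField.card F 2
  have hn1 : (n : ℕ) ≠ 1 := by
    intro h1
    rw [h1, pow_one] at hn
    have hc : Nat.card G = 6 := by
      rw [Nat.card_congr e1.toEquiv, Cfsg.Agent.Lib.Helper7.card_SL2, hn]; norm_num
    obtain ⟨x, hx⟩ := exists_prime_orderOf_dvd_card' (G := G) 3 (by rw [hc]; norm_num)
    have hcz : Nat.card (zpowers x) = 3 := by rw [Nat.card_zpowers, hx]
    have hidx : (zpowers x).index = 2 := by
      have := (zpowers x).card_mul_index
      rw [hcz, hc] at this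
      omega
    rcases (normal_of_index_eq_two hidx).eq_bot_or_eq_top with h | h
    · rw [h, card_bot] at hcz; omega
    · rw [h, card_top, hc] at hcz; omega
  have hn2 : 2 ≤ (n : ℕ) := by
    have := n.pos
    omega
  refine ⟨n, hn2, hn, ⟨e1⟩, ?_⟩
  obtain ⟨e2⟩ := sl2_equiv_psl2 F
  haveI : Fintype (GaloisField 2 n) := Fintype.ofFinite _
  have hcard : Fintype.card F = Fintype.card (GaloisField 2 n) := by
    rw [hn, ← Nat.card_eq_fintype_card, GaloisField.card 2 n (by omega)]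
  exact ⟨(e1.trans e2).trans
    (Cfsg.Agent.Lib.Helper6.pslEquiv (FiniteField.ringEquivOfCardEq hcard))⟩

end Cfsg.Agent.Lib.Helper73.SNN
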