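import Cfsg.Agent.Lib.Helper73.SNN.QS
import Cfsg.Agent.Lib.Helper26.SNNRel
import Cfsg.Agent.Lib.Helper77.Frobenius

/-!
Ladder SNN (S4073), rung NA: the Sylow 2-subgroups of a simple non-abelian `SN`-group are
commutative.
-/

set_option autoImplicit false

namespace Cfsg.Agent.Lib.Helper73.SNN

open Subgroup Cfsg.Agent.Lib.Helper26.SNN Cfsg.Agent.Lib.Helper77

/-- a simple `p`-group is commutative. -/
theorem na_comm_of_isPGroup {G : Type*} [Group G] [Finite G] [IsSimpleGroup G] {p : ℕ}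
    [Fact p.Prime] (hG : IsPGroup p G) : IsMulCommutative G := by
  have hc : center G ≠ ⊥ := by
    have := hG.center_nontrivial
    intro h
    have h2 : Subsingleton (center G) := by rw [h]; infer_instance
    exact not_nontrivial _ this
  have htop : center G = ⊤ := ((center G).normal_of_characteristic.eq_bot_or_eq_top).resolve_left hc
  refine ⟨⟨fun a b => ?_⟩⟩
  have ha : b ∈ center G := by rw [htop]; exact mem_top _
  exact (mem_center_iff.mp ha a).symm ▸ rfl

theorem na_eq_one_of_pow_of_coprime {G : Type*} [Group G] {x : G} {p n m : ℕ} (h1 : x ^ p ^ n = 1)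
    (h2 : x ^ m = 1) (hc : m.Coprime p) : x = 1 := by
  rw [← orderOf_eq_one_iff]
  exact Nat.eq_one_of_dvd_coprimes (Nat.Coprime.pow_right n hc) (orderOf_dvd_of_pow_eq_one h2)
    (orderOf_dvd_of_pow_eq_one h1)

/-- the `2`-elements of a commutative subgroup. -/
def naTwo {G : Type*} [Group G] (K : Subgroup G) (hK : ∀ a ∈ K, ∀ b ∈ K, a * b = b * a) :
    Subgroup G where
  carrier := {x | x ∈ K ∧ ∃ n : ℕ, x ^ 2 ^ n = 1}
  one_mem' := ⟨K.one_mem, 0, by simp⟩
  mul_mem' := by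
    rintro a b ⟨ha, n, hn⟩ ⟨hb, m, hm⟩
    refine ⟨K.mul_mem ha hb, n + m, ?_⟩
    have hc : Commute a b := hK a ha b hb
    rw [hc.mul_pow, pow_add, pow_mul, hn, one_pow, one_mul, mul_comm, pow_mul, hm, one_pow]
  inv_mem' := by
    rintro a ⟨ha, n, hn⟩
    exact ⟨K.inv_mem ha, n, by rw [inv_pow, hn, inv_one]⟩

theorem na_mem_normalizer_of_conj {G : Type*} [Group G] {L R : Subgroup G}
    (h : ∀ l ∈ L, ∀ x ∈ R, l * x * l⁻¹ ∈ R) {l : G} (hl : l ∈ L) : l ∈ normalizer (R : Set G) := by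
  rw [mem_normalizer_iff]
  intro x
  refine ⟨h l hl x, fun hx => ?_⟩
  have := h l⁻¹ (L.inv_mem hl) _ hx
  have e : l⁻¹ * (l * x * l⁻¹) * l⁻¹⁻¹ = x := by group
  rwa [e] at this

theorem sylow_comm {G : Type*} [Group G] [Finite G] [IsSimpleGroup G] (hna : ¬ IsMulCommutative G)
    (h : SN G) (S : Sylow 2 G) : IsMulCommutative ↥(S : Subgroup G) := by
  by_contra hS
  have h2 : Fact (Nat.Prime 2) := ⟨Nat.prime_two⟩
  -- the Frobenius condition fails
  have hF : ¬ FrobCond 2 G := by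
    intro hF
    obtain ⟨K, hKn, hKc, k, hk⟩ := npc_iff_frobCond.mpr hF
    rcases hKn.eq_bot_or_eq_top with rfl | rfl
    · rw [index_bot] at hk
      exact hna (na_comm_of_isPGroup (IsPGroup.of_card hk))
    · apply hS
      rw [card_top] at hKc
      have hS1 : (S : Subgroup G) = ⊥ := by
        obtain ⟨j, hj⟩ := IsPGroup.iff_card.mp S.2
        have h3 : Nat.card (S : Subgroup G) ∣ Nat.card G := card_subgroup_dvd_card _
        have h4 : Nat.card (S : Subgroup G) = 1 := by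
          apply Nat.eq_one_of_dvd_coprimes (Nat.Coprime.pow_right j hKc) h3
          rw [hj]
        exact card_eq_one.mp h4
      refine ⟨⟨fun a b => ?_⟩⟩
      have hle : ∀ z : G, z ∈ (S : Subgroup G) → z = 1 := by
        intro z hz
        rw [hS1, mem_bot] at hz
        exact hz
      have ha : (a : G) = 1 := hle _ a.2
      have hb : (b : G) = 1 := hle _ b.2
      apply Subtype.ext
      simp [ha, hb]
  -- a bad pair of maximal order
  let B : Set (Subgroup G) := {Q | IsPGroup 2 Q ∧ ∃ g ∈ normalizer (Q : Set G),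
    (orderOf g).Coprime 2 ∧ g ∉ centralizer (Q : Set G)}
  have hB : B.Nonempty := by
    by_contra hne
    apply hF
    intro Q hQ g hg hgo
    by_contra hgc
    exact hne ⟨Q, hQ, g, hg, hgo, hgc⟩
  obtain ⟨Q, ⟨hQ, g, hgN, hgo, hgC⟩, hmax⟩ :=
    Set.exists_max_image B (fun Q => Nat.card Q) (Set.toFinite _) hB
  set L := normalizer (Q : Set G) with hL
  have hQL : Q ≤ L := le_normalizer
  -- a non-commuting pair
  obtain ⟨q, hq, hgq⟩ : ∃ q ∈ Q, q * g ≠ g * q := by
    by_contra hcon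
    push Not at hcon
    exact hgC (mem_centralizer_iff.mpr hcon)
  have hq1 : q ≠ 1 := by
    rintro rfl
    simp at hgq
  have hLna : ¬ IsMulCommutative L := by
    intro hc
    have := hc.is_comm.comm (⟨q, hQL hq⟩ : L) ⟨g, hgN⟩
    exact hgq (congrArg Subtype.val this)
  have hQn : (Q.subgroupOf L).Normal := normal_in_normalizer
  by_cases hLs : Group.IsSolvable L
  swap
  · -- non-solvable: `Q` is central in `L`
    have hne : Q.subgroupOf L ≠ ⊤ := by
      intro htop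
      apply hLs
      have hLQ : L ≤ Q := subgroupOf_eq_top.mp htop
      have hLp : IsPGroup 2 L := hQ.to_le hLQ
      have : Group.IsNilpotent L := hLp.isNilpotent
      infer_instance
    have hc := qs (h.subgroup L) hLs (Q.subgroupOf L) hne
    have h1 : (⟨q, hQL hq⟩ : L) ∈ center L := hc (mem_subgroupOf.mpr hq)
    have := mem_center_iff.mp h1 ⟨g, hgN⟩
    exact hgq (congrArg Subtype.val this).symm
  rcases str_rel h L hLs hLna with ⟨p, hp, hLp⟩ | ⟨s, K, y, D⟩
  · -- `L` a `p`-group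
    have : Fact p.Prime := ⟨hp⟩
    obtain ⟨a, ha⟩ := hLp ⟨q, hQL hq⟩
    obtain ⟨b, hb⟩ := hQ ⟨q, hq⟩
    have ha' : q ^ p ^ a = 1 := congrArg Subtype.val ha
    have hb' : q ^ 2 ^ b = 1 := congrArg Subtype.val hb
    have hp2 : p = 2 := by
      by_contra hne
      apply hq1
      apply na_eq_one_of_pow_of_coprime ha' hb'
      exact Nat.Coprime.pow_left b ((Nat.coprime_primes Nat.prime_two hp).mpr (Ne.symm hne))
    subst hp2
    obtain ⟨c, hc⟩ := hLp ⟨g, hgN⟩
    have hc' : g ^ 2 ^ c = 1 := congrArg Subtype.val hc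
    have hg1 : g = 1 := na_eq_one_of_pow_of_coprime hc' (pow_orderOf_eq_one g) hgo
    apply hgq
    rw [hg1]; simp
  by_cases hs2 : s = 2
  · -- `s = 2`
    subst hs2
    have hgK : g ∈ K := D.mem_of_coprime g hgN hgo
    set c := g * q * g⁻¹ * q⁻¹ with hc
    have hcK : c ∈ K := by
      have : c = g * (q * g⁻¹ * q⁻¹) := by rw [hc]; group
      rw [this]
      exact K.mul_mem hgK (D.conj_mem q (hQL hq) _ (K.inv_mem hgK))
    have hcQ : c ∈ Q := Q.mul_mem ((mem_normalizer_iff.mp hgN q).mp hq) (Q.inv_mem hq)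
    obtain ⟨b, hb⟩ := hQ ⟨c, hcQ⟩
    have hb' : c ^ 2 ^ b = 1 := congrArg Subtype.val hb
    have hcc : c ^ Nat.card K = 1 := by
      have := pow_card_eq_one' (G := K) (x := ⟨c, hcK⟩)
      exact congrArg Subtype.val this
    have hc1 : c = 1 := na_eq_one_of_pow_of_coprime hb' hcc D.coprime
    apply hgq
    calc q * g = c⁻¹ * (g * q) := by rw [hc]; group
      _ = g * q := by rw [hc1, inv_one, one_mul]
  -- `s` odd
  have hs2' : (2 : ℕ).Coprime s := (Nat.coprime_primes Nat.prime_two D.prime).mpr (Ne.symm hs2)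
  have h2K : ∀ x ∈ L, ∀ n : ℕ, x ^ 2 ^ n = 1 → x ∈ K := by
    intro x hx n hn
    apply D.mem_of_coprime x hx
    exact Nat.Coprime.coprime_dvd_left (orderOf_dvd_of_pow_eq_one hn) (Nat.Coprime.pow_left n hs2')
  set R := naTwo K D.comm with hR
  have hQR : Q ≤ R := by
    intro x hx
    obtain ⟨b, hb⟩ := hQ ⟨x, hx⟩
    have hb' : x ^ 2 ^ b = 1 := congrArg Subtype.val hb
    exact ⟨h2K x (hQL hx) b hb', b, hb'⟩
  have hRp : IsPGroup 2 R := by
    rintro ⟨x, hxK, n, hn⟩
    exact ⟨n, Subtype.ext hn⟩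
  have hLR : ∀ l ∈ L, ∀ x ∈ R, l * x * l⁻¹ ∈ R := by
    rintro l hl x ⟨hxK, n, hn⟩
    exact ⟨D.conj_mem l hl x hxK, n, by rw [conj_pow, hn]; group⟩
  have hRB : R ∈ B := by
    refine ⟨hRp, y, na_mem_normalizer_of_conj hLR D.mem, ?_, ?_⟩
    · obtain ⟨e, he⟩ := D.order
      rw [he]
      exact Nat.Coprime.pow_left e hs2'.symm
    · intro hyc
      have h1 := mem_centralizer_iff.mp hyc q (hQR hq)
      exact hq1 (D.fpf q (hQR hq).1 h1.symm)
  have hRQ : R = Q := by
    have h1 : Nat.card R ≤ Nat.card Q := hmax R hRB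
    exact (eq_of_le_of_card_ge hQR h1).symm
  -- `Q` is a Sylow subgroup of `G`
  obtain ⟨T, hT⟩ := hQ.exists_le_sylow
  have hQT : Q = T := by
    by_contra hne
    obtain ⟨x, hxT, hxN, hxQ⟩ := exists_normalizer_notMem (T : Subgroup G) T.2 Q
      (lt_of_le_of_ne hT hne)
    obtain ⟨b, hb⟩ := T.2 ⟨x, hxT⟩
    have hb' : x ^ 2 ^ b = 1 := congrArg Subtype.val hb
    apply hxQ
    rw [← hRQ]
    exact ⟨h2K x hxN b hb', b, hb'⟩
  obtain ⟨t, ht⟩ := MulAction.exists_smul_eq G T S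
  apply hS
  refine ⟨⟨fun a b => ?_⟩⟩
  have ha : (a : G) ∈ (t • T : Sylow 2 G) := ht ▸ a.2
  have hb : (b : G) ∈ (t • T : Sylow 2 G) := ht ▸ b.2
  rw [mem_smul_sylow] at ha hb
  have ha' : t⁻¹ * a * t ∈ K := (hQR (hQT ▸ ha)).1
  have hb' : t⁻¹ * b * t ∈ K := (hQR (hQT ▸ hb)).1
  have := D.comm _ ha' _ hb'
  apply Subtype.ext
  show (a : G) * b = b * a
  calc (a : G) * b = t * ((t⁻¹ * a * t) * (t⁻¹ * b * t)) * t⁻¹ := by group
    _ = t * ((t⁻¹ * b * t) * (t⁻¹ * a * t)) * t⁻¹ := by rw [this]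
    _ = b * a := by group

end Cfsg.Agent.Lib.Helper73.SNN
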